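import Mathlib
import Cfsg.Agent.H12.K4
import Cfsg.Agent.H12.Chief

set_option autoImplicit false

/-! Chief factors, coprime action: preparations for the stable version of the K-infinity theorem. -/

namespace Cfsg.Agent.H12

open Cfsg
open scoped commutatorElement

section K5a

variable {G : Type*} [Group G]

/-- a chief factor just above a normal subgroup -/
lemma exists_chief_above [Finite G] {Y A : Subgroup G} (hY : Y.Normal) (hA : A.Normal) (h : Y < A) :
    ∃ X, IsChiefFactor X Y ∧ X ≤ A := by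
  obtain ⟨X, hX, hmin⟩ := (wellFounded_lt (α := Subgroup G)).has_min {X | X.Normal ∧ Y < X ∧ X ≤ A} ⟨A, hA, h, le_rfl⟩
  refine ⟨X, ⟨hX.2.1, hX.1, hY, fun N hN hYN hNX => ?_⟩, hX.2.2⟩
  by_cases h1 : N = Y
  · exact Or.inl h1
  · right
    by_contra h2
    exact hmin N ⟨hN, lt_of_le_of_ne hYN (Ne.symm h1), hNX.trans hX.2.2⟩ (lt_of_le_of_ne hNX h2)

/-- the subgroup generated by the `p'`-elements of `Λ` -/
def ppGen (p : ℕ) (Λ : Subgroup G) : Subgroup G := Subgroup.closure {x | x ∈ Λ ∧ (orderOf x).Coprime p}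

lemma ppGen_le (p : ℕ) (Λ : Subgroup G) : ppGen p Λ ≤ Λ := by
  unfold ppGen
  rw [Subgroup.closure_le]
  exact fun x hx => hx.1

instance ppGen_normal (p : ℕ) (Λ : Subgroup G) [hΛ : Λ.Normal] : (ppGen p Λ).Normal := by
  constructor
  intro n hn g
  unfold ppGen at hn ⊢
  induction hn using Subgroup.closure_induction with
  | mem x hx =>
    apply Subgroup.subset_closure
    refine ⟨hΛ.conj_mem x hx.1 g, ?_⟩
    have : orderOf (g * x * g⁻¹) = orderOf x := by
      have := (MulAut.conj g).orderOf_eq x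
      simpa using this
    rw [this]; exact hx.2
  | one => simp
  | mul x y _ _ hx hy =>
    have : g * (x * y) * g⁻¹ = (g * x * g⁻¹) * (g * y * g⁻¹) := by group
    rw [this]; exact mul_mem hx hy
  | inv x _ hx =>
    have : g * x⁻¹ * g⁻¹ = (g * x * g⁻¹)⁻¹ := by group
    rw [this]; exact inv_mem hx

lemma le_centralizer_ppGen {p : ℕ} {Λ X : Subgroup G}
    (h : ∀ x ∈ Λ, (orderOf x).Coprime p → x ∈ Subgroup.centralizer (X : Set G)) :
    X ≤ Subgroup.centralizer (ppGen p Λ : Set G) := by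
  rw [Subgroup.le_centralizer_iff]
  unfold ppGen
  rw [Subgroup.closure_le]
  exact fun x hx => h x hx.1 hx.2

variable {p : ℕ} [Fact p.Prime]

/-- coprime action, one step, for normal subgroups -/
lemma coprime_centralizes {X Y : Subgroup G} [hX : X.Normal] [hY : Y.Normal] (hYp : IsPGroup p Y) {x : G}
    (h1 : ⁅X, Subgroup.zpowers x⁆ ≤ Y) (h2 : x ∈ Subgroup.centralizer (Y : Set G)) (hco : (orderOf x).Coprime p) :
    x ∈ Subgroup.centralizer (X : Set G) := by
  refine centralizes_of_actTriv hYp ⟨?_, ?_, ?_⟩ h2 hco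
  · rw [Subgroup.normalizer_eq_top_iff.mpr hX]; trivial
  · rw [Subgroup.normalizer_eq_top_iff.mpr hY]; trivial
  · intro a ha
    have h3 : ⁅a⁻¹, x⁻¹⁆ ∈ ⁅X, Subgroup.zpowers x⁆ :=
      Subgroup.commutator_mem_commutator (X.inv_mem ha) (Subgroup.inv_mem _ (Subgroup.mem_zpowers x))
    have := h1 h3
    rw [commutatorElement_def] at this
    simpa [mul_assoc] using this

/-- a normal subgroup all of whose `p'`-elements are trivial is a `p`-group -/
lemma isPGroup_of_pprime_trivial [Finite G] {Λ : Subgroup G} (h : ∀ x ∈ Λ, (orderOf x).Coprime p → x = 1) :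
    IsPGroup p Λ := by
  intro g
  obtain ⟨e, m, hm, hn⟩ := Nat.exists_eq_pow_mul_and_not_dvd (orderOf_pos (g : G)).ne' p (Fact.out : p.Prime).one_lt.ne'
  refine ⟨e, ?_⟩
  apply Subtype.ext
  rw [Subgroup.coe_pow, Subgroup.coe_one]
  apply h _ (Λ.pow_mem g.2 _)
  have h1 : ((g : G) ^ p ^ e) ^ m = 1 := by
    rw [← pow_mul, ← hn, pow_orderOf_eq_one]
  exact Nat.Coprime.coprime_dvd_left (orderOf_dvd_of_pow_eq_one h1)
    ((Nat.Prime.coprime_iff_not_dvd Fact.out).mpr hm).symm

/-- a normal subgroup acting trivially on the chief factors inside `N`: its `p'`-elements centralize `N` -/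
lemma pprime_centralizes [Finite G] (N Λ : Subgroup G) [hN : N.Normal] [hΛ : Λ.Normal] (hNp : IsPGroup p N)
    (h : ∀ U V : Subgroup G, IsChiefFactor U V → U ≤ N → ⁅U, Λ⁆ ≤ V) :
    N ≤ Subgroup.centralizer (ppGen p Λ : Set G) := by
  set Y := N ⊓ Subgroup.centralizer (ppGen p Λ : Set G) with hY
  have hYn : Y.Normal := inferInstance
  by_contra hcon
  have hlt : Y < N := lt_of_le_of_ne inf_le_left (fun h => hcon (h ▸ inf_le_right))
  obtain ⟨X, hXY, hXN⟩ := exists_chief_above hYn hN hlt
  have hXn : X.Normal := hXY.2.1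
  have h1 : X ≤ Subgroup.centralizer (ppGen p Λ : Set G) := by
    apply le_centralizer_ppGen
    intro x hx hco
    apply coprime_centralizes (Y := Y) (hNp.to_le inf_le_left) _ _ hco
    · exact (Subgroup.commutator_mono le_rfl ((Subgroup.zpowers_le).mpr hx)).trans (h X Y hXY hXN)
    · have h2 : Y ≤ Subgroup.centralizer (ppGen p Λ : Set G) := inf_le_right
      rw [Subgroup.le_centralizer_iff] at h2
      exact h2 (Subgroup.subset_closure ⟨hx, hco⟩)
  exact absurd hXY.1 (not_lt_of_ge (le_inf hXN h1))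

/-- `C_G(A) ≤ O_p(G)` for a "critical" subgroup `A` in a constrained group -/
lemma centralizer_le_pCore [Finite G] (A : Subgroup G) [hA : A.Normal] (hAT' : A ≤ pCore p G)
    (hc : Subgroup.centralizer (pCore p G : Set G) ≤ pCore p G)
    (hAT : ⁅A, pCore p G⁆ ≤ A ⊓ Subgroup.centralizer (A : Set G))
    (hC : pCore p G ⊓ Subgroup.centralizer (A : Set G) ≤ A ⊓ Subgroup.centralizer (A : Set G)) :
    Subgroup.centralizer (A : Set G) ≤ pCore p G := by
  have hTn : (pCore p G).Normal := by
    have := pCore_characteristic p G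
    exact Subgroup.normal_of_characteristic _
  set T := pCore p G with hT
  set Z := A ⊓ Subgroup.centralizer (A : Set G) with hZ
  have hTp : IsPGroup p T := pCore_isPGroup p G
  apply le_pCore inferInstance
  apply isPGroup_of_pprime_trivial
  intro x hx hco
  have hxz : Subgroup.zpowers x ≤ Subgroup.centralizer (A : Set G) := (Subgroup.zpowers_le).mpr hx
  have h1 : ⁅⁅Subgroup.zpowers x, A⁆, T⁆ = ⊥ := by
    have : ⁅Subgroup.zpowers x, A⁆ = ⊥ := Subgroup.commutator_eq_bot_iff_le_centralizer.mpr hxz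
    rw [this]; exact Subgroup.commutator_bot_left _
  have h2 : ⁅⁅A, T⁆, Subgroup.zpowers x⁆ = ⊥ := by
    rw [Subgroup.commutator_eq_bot_iff_le_centralizer]
    refine (hAT.trans inf_le_left).trans ?_
    rw [Subgroup.le_centralizer_iff]
    exact hxz
  have h3 : ⁅⁅T, Subgroup.zpowers x⁆, A⁆ = ⊥ := Subgroup.commutator_commutator_eq_bot_of_rotate h1 h2
  have h4 : ⁅T, Subgroup.zpowers x⁆ ≤ Z := by
    refine le_trans (le_inf (Subgroup.commutator_le_left _ _) ?_) hC
    exact Subgroup.commutator_eq_bot_iff_le_centralizer.mp h3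
  have hZp : IsPGroup p Z := by
    exact hTp.to_le (inf_le_left.trans hAT')
  have h5 : x ∈ Subgroup.centralizer (T : Set G) := by
    apply coprime_centralizes (Y := Z) hZp h4 _ hco
    exact Subgroup.centralizer_le inf_le_left hx
  have h6 := hc h5
  obtain ⟨k, hk⟩ := hTp ⟨x, h6⟩
  have hk' : x ^ p ^ k = 1 := congrArg Subtype.val hk
  have h7 : orderOf x ∣ p ^ k := orderOf_dvd_of_pow_eq_one hk'
  have h8 : orderOf x ∣ 1 := by
    have := Nat.Coprime.pow_right k hco
    exact (Nat.Coprime.dvd_of_dvd_mul_right this (by simpa using h7))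
  exact orderOf_eq_one_iff.mp (Nat.dvd_one.mp h8)

/-- a normal subgroup acting trivially on all chief factors inside `A` lies in `O_p(G)` -/
lemma le_pCore_of_chief_trivial [Finite G] (A Λ : Subgroup G) [hA : A.Normal] [hΛ : Λ.Normal] (hAT' : A ≤ pCore p G)
    (hc : Subgroup.centralizer (pCore p G : Set G) ≤ pCore p G)
    (hAT : ⁅A, pCore p G⁆ ≤ A ⊓ Subgroup.centralizer (A : Set G))
    (hC : pCore p G ⊓ Subgroup.centralizer (A : Set G) ≤ A ⊓ Subgroup.centralizer (A : Set G))
    (h : ∀ U V : Subgroup G, IsChiefFactor U V → U ≤ A → ⁅U, Λ⁆ ≤ V) : Λ ≤ pCore p G := by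
  have hTp : IsPGroup p (pCore p G) := pCore_isPGroup p G
  apply le_pCore hΛ
  apply isPGroup_of_pprime_trivial
  intro x hx hco
  have h1 := pprime_centralizes A Λ (hTp.to_le hAT') h
  rw [Subgroup.le_centralizer_iff] at h1
  have h2 : x ∈ Subgroup.centralizer (A : Set G) := h1 (Subgroup.subset_closure ⟨hx, hco⟩)
  have h6 := centralizer_le_pCore A hAT' hc hAT hC h2
  obtain ⟨k, hk⟩ := hTp ⟨x, h6⟩
  have hk' : x ^ p ^ k = 1 := congrArg Subtype.val hk
  have h7 : orderOf x ∣ p ^ k := orderOf_dvd_of_pow_eq_one hk'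
  have h8 : orderOf x ∣ 1 := by
    have := Nat.Coprime.pow_right k hco
    exact (Nat.Coprime.dvd_of_dvd_mul_right this (by simpa using h7))
  exact orderOf_eq_one_iff.mp (Nat.dvd_one.mp h8)

/-- passing from a subgroup to its normal closure, for the action on a normal section -/
lemma commutator_normalClosure_le {U V B : Subgroup G} [hU : U.Normal] [hV : V.Normal] (h : ⁅U, B⁆ ≤ V) :
    ⁅U, Subgroup.normalClosure (B : Set G)⁆ ≤ V := by
  rw [← le_cmod_iff] at h ⊢
  exact Subgroup.normalClosure_le_normal h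

/-- a subgroup acting trivially on all chief factors inside `A` lies in `O_p(G)` -/
lemma le_pCore_of_chief_trivial' [Finite G] (A B : Subgroup G) [hA : A.Normal] (hAT' : A ≤ pCore p G)
    (hc : Subgroup.centralizer (pCore p G : Set G) ≤ pCore p G)
    (hAT : ⁅A, pCore p G⁆ ≤ A ⊓ Subgroup.centralizer (A : Set G))
    (hC : pCore p G ⊓ Subgroup.centralizer (A : Set G) ≤ A ⊓ Subgroup.centralizer (A : Set G))
    (h : ∀ U V : Subgroup G, IsChiefFactor U V → U ≤ A → ⁅U, B⁆ ≤ V) : B ≤ pCore p G := by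
  refine Subgroup.le_normalClosure.trans (le_pCore_of_chief_trivial A _ hAT' hc hAT hC ?_)
  intro U V hUV hU
  have := hUV.2.1
  have := hUV.2.2.1
  exact commutator_normalClosure_le (h U V hUV hU)

/-- `O_p(G)` centralizes the chief factors inside it -/
lemma pCore_centralizes_chief [Finite G] {U V : Subgroup G} (hUV : IsChiefFactor U V) (hU : U ≤ pCore p G) :
    ⁅U, pCore p G⁆ ≤ V := by
  have hTn : (pCore p G).Normal := by
    have := pCore_characteristic p G
    exact Subgroup.normal_of_characteristic _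
  set T := pCore p G with hT
  by_contra hcon
  obtain ⟨r, hr⟩ := exists_lcs_eq_bot (pCore_isPGroup p G)
  have hall : ∀ k, ¬ U ⊓ iterCommutator T T k ≤ V := by
    intro k
    induction k with
    | zero =>
      change ¬ U ⊓ T ≤ V
      rw [inf_eq_left.mpr hU]
      exact fun h => absurd hUV.1 (not_lt_of_ge h)
    | succ k ih => exact chief_step hUV 1 (M := iterCommutator T T k) (M' := iterCommutator T T (k + 1)) (D := T) le_rfl ih hcon
  apply hall r
  have : iterCommutator T T r ≤ ⊥ := by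
    rw [← hr]; exact iterCommutator_le_lcs le_rfl r
  exact (inf_le_right.trans this).trans bot_le

/-- quadratic action on `A / Z(A)` and on `Z(A)` gives quadratic action on the chief factors inside `A` -/
lemma quad_on_chief (A D : Subgroup G) [hA : A.Normal]
    (h1 : ⁅⁅A, D⁆, D⁆ ≤ A ⊓ Subgroup.centralizer (A : Set G))
    (h2 : ⁅⁅A ⊓ Subgroup.centralizer (A : Set G), D⁆, D⁆ = ⊥) {U V : Subgroup G} (hUV : IsChiefFactor U V)
    (hU : U ≤ A) : ⁅⁅U, D⁆, D⁆ ≤ V := by
  by_contra hcon
  have h3 : ¬ U ⊓ A ≤ V := by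
    rw [inf_eq_left.mpr hU]
    exact fun h => absurd hUV.1 (not_lt_of_ge h)
  have h4 := chief_step hUV 2 (M := A) (M' := A ⊓ Subgroup.centralizer (A : Set G)) (D := D) h1 h3 hcon
  have h5 := chief_step hUV 2 (M := A ⊓ Subgroup.centralizer (A : Set G)) (M' := ⊥) (D := D) h2.le h4 hcon
  exact h5 (by rw [inf_bot_eq]; exact bot_le)

end K5a

end Cfsg.Agent.H12
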