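import Mathlib
import Cfsg.Agent.H12.K5a
import Cfsg.Agent.H12.Sec4
import Cfsg.Agent.Lib.Helper13.CardSup

set_option autoImplicit false

/-! The commutator claim in the stable K-infinity theorem (argument of helper4). -/

namespace Cfsg.Agent.H12

open Cfsg
open scoped commutatorElement

section claim

variable {G : Type*} [Group G]

/-- the elements commuting with `b` modulo `M` -/
def cenMod (M : Subgroup G) [M.Normal] (b : G) : Subgroup G :=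
  (Subgroup.centralizer {QuotientGroup.mk' M b}).comap (QuotientGroup.mk' M)

lemma mem_cenMod {M : Subgroup G} [M.Normal] {b g : G} : g ∈ cenMod M b ↔ ⁅b, g⁆ ∈ M := by
  unfold cenMod
  rw [Subgroup.mem_comap, Subgroup.mem_centralizer_singleton_iff, ← QuotientGroup.eq_one_iff,
    commutatorElement_def]
  change _ ↔ QuotientGroup.mk' M (b * g * b⁻¹ * g⁻¹) = 1
  rw [map_mul, map_mul, map_mul, map_inv, map_inv]
  constructor
  · intro h
    rw [← h]; group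
  · intro h
    have := mul_inv_eq_one.mp h
    exact (mul_inv_eq_iff_eq_mul.mp this).symm

/-- class two data: `Y0` central in `X0`, containing the commutators -/
structure C2 (X0 Y0 : Subgroup G) : Prop where
  le : Y0 ≤ X0
  comm : ∀ z ∈ Y0, ∀ x ∈ X0, z * x = x * z
  der : ∀ x ∈ X0, ∀ y ∈ X0, ⁅x, y⁆ ∈ Y0

namespace C2

variable {X0 Y0 : Subgroup G} (h : C2 X0 Y0)

include h

lemma mul_left {x z y : G} (hx : x ∈ X0) (hz : z ∈ X0) (hy : y ∈ X0) : ⁅x * z, y⁆ = ⁅x, y⁆ * ⁅z, y⁆ := by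
  have h1 := h.comm _ (h.der z hz y hy) x hx
  have h2 := h.comm _ (h.der z hz y hy) _ (h.le (h.der x hx y hy))
  have e : ⁅x * z, y⁆ = x * ⁅z, y⁆ * x⁻¹ * ⁅x, y⁆ := by
    simp only [commutatorElement_def]; group
  rw [e, ← h1, mul_inv_cancel_right, h2]

lemma mul_right {x y z : G} (hx : x ∈ X0) (hy : y ∈ X0) (hz : z ∈ X0) : ⁅x, y * z⁆ = ⁅x, y⁆ * ⁅x, z⁆ := by
  have h1 := h.comm _ (h.der x hx z hz) y hy
  have e : ⁅x, y * z⁆ = ⁅x, y⁆ * (y * ⁅x, z⁆ * y⁻¹) := by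
    simp only [commutatorElement_def]; group
  rw [e, ← h1, mul_inv_cancel_right]

lemma one_left {z y : G} (hz : z ∈ Y0) (hy : y ∈ X0) : ⁅z, y⁆ = 1 := by
  rw [commutatorElement_def, h.comm z hz y hy]; group

lemma one_right {z y : G} (hz : z ∈ Y0) (hy : y ∈ X0) : ⁅y, z⁆ = 1 := by
  rw [commutatorElement_def, ← h.comm z hz y hy]; group

lemma formula [hn : X0.Normal] (b : G) {x y : G} (hx : x ∈ X0) (hy : y ∈ X0) :
    ⁅b, ⁅x, y⁆⁆ = ⁅⁅b, x⁆, ⁅b, y⁆⁆ * ⁅⁅b, x⁆, y⁆ * ⁅x, ⁅b, y⁆⁆ := by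
  have hN : ∀ u ∈ X0, ⁅b, u⁆ ∈ X0 := by
    intro u hu
    rw [commutatorElement_def]
    exact X0.mul_mem (hn.conj_mem u hu b) (X0.inv_mem hu)
  have e1 : ⁅b, ⁅x, y⁆⁆ = ⁅⁅b, x⁆ * x, ⁅b, y⁆ * y⁆ * ⁅x, y⁆⁻¹ := by
    simp only [commutatorElement_def]; group
  rw [e1, h.mul_left (hN x hx) hx (X0.mul_mem (hN y hy) hy), h.mul_right (hN x hx) (hN y hy) hy,
    h.mul_right hx (hN y hy) hy]
  group

lemma delta_mul [hn : Y0.Normal] (b : G) {d d' : G} (hd : d ∈ Y0) (hd' : d' ∈ Y0) :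
    ⁅b, d * d'⁆ = ⁅b, d⁆ * ⁅b, d'⁆ := by
  have h1 : ⁅b, d'⁆ ∈ Y0 := by
    rw [commutatorElement_def]
    exact Y0.mul_mem (hn.conj_mem d' hd' b) (Y0.inv_mem hd')
  have h2 := h.comm _ h1 d⁻¹ (X0.inv_mem (h.le hd))
  have e : ⁅b, d * d'⁆ = b * d * b⁻¹ * (⁅b, d'⁆ * d⁻¹) := by
    simp only [commutatorElement_def]; group
  rw [e, h2]
  simp only [commutatorElement_def]; group

/-- subgroups between `Y0` and `X0` are normalized by `X0` -/
lemma le_normalizer {V : Subgroup G} (hV : Y0 ≤ V) (hV' : V ≤ X0) : X0 ≤ Subgroup.normalizer (V : Set G) := by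
  have key : ∀ x ∈ X0, ∀ v ∈ V, x * v * x⁻¹ ∈ V := by
    intro x hx v hv
    have e : x * v * x⁻¹ = ⁅x, v⁆ * v := by rw [commutatorElement_def]; group
    rw [e]
    exact V.mul_mem (hV (h.der x hx v (hV' hv))) hv
  intro x hx
  rw [Subgroup.mem_normalizer_iff]
  intro v
  refine ⟨key x hx v, fun hv => ?_⟩
  have := key x⁻¹ (X0.inv_mem hx) _ hv
  simpa [mul_assoc] using this

end C2

lemma mem_of_sq_mem {p : ℕ} [Fact p.Prime] (hp : p ≠ 2) {X M : Subgroup G} (hX : IsPGroup p X) {n : G} (hn : n ∈ X)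
    (h : n * n ∈ M) : n ∈ M := by
  obtain ⟨k, hk⟩ := hX ⟨n, hn⟩
  have hk' : n ^ p ^ k = 1 := congrArg Subtype.val hk
  have hodd : Odd (p ^ k) := ((Fact.out : p.Prime).odd_of_ne_two hp).pow
  obtain ⟨m, hm⟩ := hodd
  have e : n = (n * n) ^ (m + 1) := by
    rw [← pow_two, ← pow_mul]
    have : 2 * (m + 1) = p ^ k + 1 := by omega
    rw [this, pow_succ, hk', one_mul]
  rw [e]
  exact M.pow_mem h _

set_option maxHeartbeats 1600000 in
/-- the key computation for a single element `b` -/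
theorem claim_single [Finite G] {p : ℕ} [Fact p.Prime] (hp : p ≠ 2) {X0 Y0 R B D1 D' : Subgroup G}
    [hX0 : X0.Normal] [hY0 : Y0.Normal] [hR : R.Normal] [hD' : D'.Normal]
    (h : C2 X0 Y0) (hX0p : IsPGroup p X0) (hBR : B ≤ R)
    (hirr : ∀ M : Subgroup G, M.Normal → Y0 ≤ M → M ≤ X0 → M = Y0 ∨ M = X0)
    (hXB : X0 ≤ Subgroup.normalizer (B : Set G)) (hB2 : ⁅B, B⁆ ≤ Subgroup.centralizer (B : Set G))
    (hD1 : ∀ r ∈ R, ∀ x ∈ X0, ∀ y ∈ X0, ⁅r, ⁅x, y⁆⁆ ∈ D1)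
    (hD1' : ∀ r ∈ R, ∀ d ∈ D1, ⁅r, d⁆ ∈ D')
    {b : G} (hb : b ∈ B) : ∀ x ∈ X0, ∀ y ∈ X0, ⁅b, ⁅x, y⁆⁆ ∈ D' := by
  set E := cenMod D' b with hE
  have hbR : b ∈ R := hBR hb
  have hD1E : ∀ d ∈ D1, d ∈ E := fun d hd => mem_cenMod.mpr (hD1' b hbR d hd)
  -- the subgroup `K`
  let K : Subgroup G :=
    { carrier := {x | x ∈ X0 ∧ ∀ y ∈ X0, ⁅x, y⁆ ∈ E}
      mul_mem' := by
        rintro x z ⟨hx, hx'⟩ ⟨hz, hz'⟩
        refine ⟨X0.mul_mem hx hz, fun y hy => ?_⟩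
        rw [h.mul_left hx hz hy]
        exact E.mul_mem (hx' y hy) (hz' y hy)
      one_mem' := ⟨X0.one_mem, fun y _ => by rw [commutatorElement_one_left]; exact E.one_mem⟩
      inv_mem' := by
        rintro x ⟨hx, hx'⟩
        refine ⟨X0.inv_mem hx, fun y hy => ?_⟩
        have e := h.mul_left (X0.inv_mem hx) hx hy
        rw [inv_mul_cancel, commutatorElement_one_left] at e
        have e2 : ⁅x⁻¹, y⁆ = ⁅x, y⁆⁻¹ := eq_inv_of_mul_eq_one_left e.symm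
        rw [e2]
        exact E.inv_mem (hx' y hy) }
  have hKmem : ∀ x, x ∈ K ↔ x ∈ X0 ∧ ∀ y ∈ X0, ⁅x, y⁆ ∈ E := fun x => Iff.rfl
  have hKX : K ≤ X0 := fun x hx => hx.1
  have hYK : Y0 ≤ K := by
    intro z hz
    refine ⟨h.le hz, fun y hy => ?_⟩
    rw [h.one_left hz hy]; exact E.one_mem
  have hKR : ∀ r ∈ R, cj K r = K := by
    intro r hr
    apply cj_eq_of_le
    intro x hx
    have hk : r * x * r⁻¹ ∈ K := mem_cj.mp hx
    have hxX : x ∈ X0 := by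
      have := hX0.conj_mem _ hk.1 r⁻¹
      simpa [mul_assoc] using this
    refine ⟨hxX, fun y hy => ?_⟩
    have hy' : r * y * r⁻¹ ∈ X0 := hX0.conj_mem y hy r
    have hd := hk.2 _ hy'
    have e : ⁅x, y⁆ = ⁅r⁻¹, ⁅r * x * r⁻¹, r * y * r⁻¹⁆⁆ * ⁅r * x * r⁻¹, r * y * r⁻¹⁆ := by
      simp only [commutatorElement_def]; group
    rw [e]
    exact E.mul_mem (hD1E _ (hD1 r⁻¹ (R.inv_mem hr) _ hk.1 _ hy')) hd
  -- trivial case
  by_cases htriv : Y0 = X0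
  · intro x hx y hy
    rw [h.one_left (htriv ▸ hx) hy, commutatorElement_one_right]
    exact D'.one_mem
  have hlt : Y0 < X0 := lt_of_le_of_ne h.le htriv
  -- the complement
  obtain ⟨V', hV', hmax⟩ := (wellFounded_gt (α := Subgroup G)).has_min
    {V | Y0 ≤ V ∧ V ≤ X0 ∧ (∀ r ∈ R, cj V r = V) ∧ V ⊓ K = Y0}
    ⟨Y0, le_rfl, h.le, fun r _ => cj_normal Y0 r, inf_eq_left.mpr hYK⟩
  obtain ⟨hYV, hVX, hVR, hVK⟩ := hV'
  obtain ⟨I, hI, hImin⟩ := Set.exists_min_image {I : Subgroup G | Y0 < I ∧ I ≤ X0 ∧ ∀ r ∈ R, cj I r = I}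
    (fun I => Nat.card I) (Set.toFinite _) ⟨X0, hlt, le_rfl, fun r _ => cj_normal X0 r⟩
  obtain ⟨hYI, hIX, hIR⟩ := hI
  have hsupR : ∀ r ∈ R, cj (V' ⊔ K) r = V' ⊔ K := by
    intro r hr
    rw [cj_sup, hVR r hr, hKR r hr]
  have hIg : ∀ g : G, cj I g ≤ V' ⊔ K := by
    intro g
    by_contra hcon
    have h1 : Y0 ≤ cj I g := by
      have := cj_mono hYI.le g
      rwa [cj_normal Y0 g] at this
    have h2 : cj I g ≤ X0 := by
      have := cj_mono hIX g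
      rwa [cj_normal X0 g] at this
    have h3 : ∀ r ∈ R, cj (cj I g) r = cj I g := by
      intro r hr
      have e : g * r = (g * r * g⁻¹) * g := by group
      rw [cj_mul, e, ← cj_mul, hIR _ (hR.conj_mem r hr g)]
    set J := cj I g ⊓ (V' ⊔ K) with hJ
    have hJ0 : J = Y0 := by
      by_contra hne
      have hYJ : Y0 ≤ J := le_inf h1 (hYV.trans le_sup_left)
      have h4 := hImin J ⟨lt_of_le_of_ne hYJ (Ne.symm hne), inf_le_left.trans h2, fun r hr => by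
        rw [hJ, cj_inf, h3 r hr, hsupR r hr]⟩
      have h5 : J = cj I g := eq_of_le_of_card_eq inf_le_left
        (le_antisymm (Subgroup.card_le_of_le inf_le_left) (by rw [card_cj]; exact h4))
      exact hcon (h5 ▸ inf_le_right)
    have hVn : V' ≤ Subgroup.normalizer ((cj I g : Subgroup G) : Set G) := hVX.trans (h.le_normalizer h1 h2)
    have h6 : (V' ⊔ cj I g) ⊓ K = Y0 := by
      apply le_antisymm
      · rintro x ⟨hx1, hx2⟩
        obtain ⟨v, hv, i, hi, rfl⟩ := Cfsg.Agent.Lib.Helper13.mem_sup_of_le_normalizer hVn hx1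
        have hi' : i ∈ J := by
          refine ⟨hi, ?_⟩
          have : i = v⁻¹ * (v * i) := by group
          rw [this]
          exact (V' ⊔ K).mul_mem (Subgroup.mem_sup_left (V'.inv_mem hv)) (Subgroup.mem_sup_right hx2)
        rw [hJ0] at hi'
        rw [← hVK]
        exact ⟨V'.mul_mem hv (hYV hi'), hx2⟩
      · exact le_inf (hYV.trans le_sup_left) hYK
    apply hmax (V' ⊔ cj I g) ⟨hYV.trans le_sup_left, sup_le hVX h2, fun r hr => by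
      rw [cj_sup, hVR r hr, h3 r hr], h6⟩
    refine lt_of_le_of_ne le_sup_left ?_
    intro heq
    apply hcon
    have : cj I g ≤ V' := by rw [heq]; exact le_sup_right
    exact this.trans le_sup_left
  have hcover : X0 ≤ V' ⊔ K := by
    have hMX : Subgroup.normalClosure (I : Set G) ≤ X0 := Subgroup.normalClosure_le_normal hIX
    have hIM : I ≤ Subgroup.normalClosure (I : Set G) := Subgroup.le_normalClosure
    rcases hirr _ Subgroup.normalClosure_normal (hYI.le.trans hIM) hMX with h1 | h1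
    · exact absurd hYI (not_lt_of_ge (h1 ▸ hIM))
    · rw [← h1, Subgroup.normalClosure, Subgroup.closure_le]
      intro y hy
      obtain ⟨a, ha, hay⟩ := Group.mem_conjugatesOfSet_iff.mp hy
      obtain ⟨c, rfl⟩ := isConj_iff.mp hay
      apply hIg c⁻¹
      rw [mem_cj]
      have : c⁻¹ * (c * a * c⁻¹) * c⁻¹⁻¹ = a := by group
      rw [this]; exact ha
  have hdecomp : ∀ y ∈ X0, ∃ v ∈ V', ∃ k ∈ K, y = v * k := fun y hy =>
    Cfsg.Agent.Lib.Helper13.mem_sup_of_le_normalizer (hVX.trans (h.le_normalizer hYK hKX)) (hcover hy)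
  -- the operator `N = [b, ·]`
  have hNX : ∀ u ∈ X0, ⁅b, u⁆ ∈ X0 := by
    intro u hu
    rw [commutatorElement_def]
    exact X0.mul_mem (hX0.conj_mem u hu b) (X0.inv_mem hu)
  have hNB : ∀ u ∈ X0, ⁅b, u⁆ ∈ B := by
    intro u hu
    have h1 : u * b⁻¹ * u⁻¹ ∈ B := (Subgroup.mem_normalizer_iff.mp (hXB hu) b⁻¹).mp (B.inv_mem hb)
    have e : ⁅b, u⁆ = b * (u * b⁻¹ * u⁻¹) := by rw [commutatorElement_def]; group
    rw [e]; exact B.mul_mem hb h1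
  have hZB : ∀ c ∈ B, ∀ c' ∈ B, ∀ e ∈ B, e * ⁅c, c'⁆ = ⁅c, c'⁆ * e := by
    intro c hc c' hc' e he
    exact (Subgroup.mem_centralizer_iff.mp (hB2 (Subgroup.commutator_mem_commutator hc hc'))) e he
  have hNNN : ∀ u ∈ X0, ⁅b, ⁅b, ⁅b, u⁆⁆⁆ = 1 := by
    intro u hu
    have := hZB b hb _ (hNB u hu) b hb
    rw [commutatorElement_def b ⁅b, ⁅b, u⁆⁆, this]; group
  have hNNc : ∀ u ∈ X0, ∀ v ∈ X0, ⁅⁅b, ⁅b, u⁆⁆, ⁅b, v⁆⁆ = 1 := by
    intro u hu v hv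
    have := hZB b hb _ (hNB u hu) _ (hNB v hv)
    rw [commutatorElement_def ⁅b, ⁅b, u⁆⁆ ⁅b, v⁆, ← this]; group
  have hNNK : ∀ u ∈ X0, ⁅b, ⁅b, u⁆⁆ ∈ K := by
    intro u hu
    refine ⟨hNX _ (hNX u hu), fun y hy => ?_⟩
    rw [hE, mem_cenMod, h.formula b (hNX _ (hNX u hu)) hy, hNNN u hu, hNNc u hu y hy]
    simp
  have hVb : ∀ x ∈ V', ⁅b, x⁆ ∈ V' := by
    intro x hx
    have h1 : b * x * b⁻¹ ∈ cj V' b⁻¹ := by
      rw [mem_cj]
      have : b⁻¹ * (b * x * b⁻¹) * b⁻¹⁻¹ = x := by group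
      rw [this]; exact hx
    rw [hVR _ (R.inv_mem hbR)] at h1
    rw [commutatorElement_def]
    exact V'.mul_mem h1 (V'.inv_mem hx)
  have hNN0 : ∀ x ∈ V', ⁅b, ⁅b, x⁆⁆ ∈ Y0 := by
    intro x hx
    rw [← hVK]
    exact ⟨hVb _ (hVb x hx), hNNK x (hVX hx)⟩
  have hW1 : ∀ x ∈ V', ∀ y ∈ V', ⁅b, ⁅⁅b, x⁆, y⁆⁆ = ⁅⁅b, x⁆, ⁅b, y⁆⁆ := by
    intro x hx y hy
    rw [h.formula b (hNX x (hVX hx)) (hVX hy), h.one_left (hNN0 x hx) (hNX y (hVX hy)),
      h.one_left (hNN0 x hx) (hVX hy)]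
    simp
  have hW2 : ∀ x ∈ V', ∀ y ∈ V', ⁅b, ⁅x, ⁅b, y⁆⁆⁆ = ⁅⁅b, x⁆, ⁅b, y⁆⁆ := by
    intro x hx y hy
    rw [h.formula b (hVX hx) (hNX y (hVX hy)), h.one_right (hNN0 y hy) (hNX x (hVX hx)),
      h.one_right (hNN0 y hy) (hVX hx)]
    simp
  have hW3 : ∀ x ∈ V', ∀ y ∈ V', ⁅b, ⁅⁅b, x⁆, ⁅b, y⁆⁆⁆ = 1 := by
    intro x hx y hy
    rw [h.formula b (hNX x (hVX hx)) (hNX y (hVX hy)), h.one_left (hNN0 x hx) (hNX _ (hNX y (hVX hy))),
      h.one_left (hNN0 x hx) (hNX y (hVX hy)), h.one_right (hNN0 y hy) (hNX x (hVX hx))]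
    simp
  have hn : ∀ x ∈ V', ∀ y ∈ V', ⁅⁅b, x⁆, ⁅b, y⁆⁆ ∈ D' := by
    intro x hx y hy
    have hx' := hVX hx
    have hy' := hVX hy
    apply mem_of_sq_mem hp hX0p (h.le (h.der _ (hNX x hx') _ (hNX y hy')))
    have h1 : ⁅b, ⁅b, ⁅x, y⁆⁆⁆ ∈ D' := hD1' b hbR _ (hD1 b hbR x hx' y hy')
    rw [h.formula b hx' hy', h.delta_mul b (Y0.mul_mem (h.der _ (hNX x hx') _ (hNX y hy')) (h.der _ (hNX x hx') _ hy'))
      (h.der _ hx' _ (hNX y hy')), h.delta_mul b (h.der _ (hNX x hx') _ (hNX y hy')) (h.der _ (hNX x hx') _ hy'),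
      hW1 x hx y hy, hW2 x hx y hy, hW3 x hx y hy, one_mul] at h1
    exact h1
  have hsymm : ∀ x y : G, ⁅x, y⁆ ∈ E → ⁅y, x⁆ ∈ E := by
    intro x y hxy
    rw [← commutatorElement_inv]
    exact E.inv_mem hxy
  have hNK : ∀ x ∈ V', ⁅b, x⁆ ∈ K := by
    intro x hx
    refine ⟨hNX x (hVX hx), fun y hy => ?_⟩
    obtain ⟨v, hv, k, hk, rfl⟩ := hdecomp y hy
    rw [h.mul_right (hNX x (hVX hx)) (hVX hv) (hKX hk)]
    refine E.mul_mem ?_ (hsymm _ _ (hk.2 _ (hNX x (hVX hx))))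
    rw [hE, mem_cenMod, hW1 x hx v hv]
    exact hn x hx v hv
  have hN0 : ∀ x ∈ V', ⁅b, x⁆ ∈ Y0 := by
    intro x hx
    rw [← hVK]
    exact ⟨hVb x hx, hNK x hx⟩
  have hVK' : V' ≤ K := by
    intro x hx
    refine ⟨hVX hx, fun y hy => ?_⟩
    obtain ⟨v, hv, k, hk, rfl⟩ := hdecomp y hy
    rw [h.mul_right (hVX hx) (hVX hv) (hKX hk)]
    refine E.mul_mem ?_ (hsymm _ _ (hk.2 _ (hVX hx)))
    rw [hE, mem_cenMod, h.formula b (hVX hx) (hVX hv), h.one_left (hN0 x hx) (hNX v (hVX hv)),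
      h.one_left (hN0 x hx) (hVX hv), h.one_right (hN0 v hv) (hVX hx)]
    simp
  intro x hx y hy
  have hxK : x ∈ K := (sup_le hVK' le_rfl : V' ⊔ K ≤ K) (hcover hx)
  exact mem_cenMod.mp (hxK.2 y hy)

/-- the commutator claim -/
theorem claim_comm [Finite G] {p : ℕ} [Fact p.Prime] (hp : p ≠ 2) {X0 Y0 B : Subgroup G}
    [hX0 : X0.Normal] [hY0 : Y0.Normal] (h : C2 X0 Y0) (hX0p : IsPGroup p X0)
    (hirr : ∀ M : Subgroup G, M.Normal → Y0 ≤ M → M ≤ X0 → M = Y0 ∨ M = X0)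
    (hXB : X0 ≤ Subgroup.normalizer (B : Set G)) (hB2 : ⁅B, B⁆ ≤ Subgroup.centralizer (B : Set G))
    (hdec : ∀ E : Subgroup G, E.Normal → E ≤ ⁅X0, X0⁆ → E ≠ ⊥ → ⁅E, Subgroup.normalClosure (B : Set G)⁆ ≠ E) :
    ⁅⁅X0, X0⁆, B⁆ = ⊥ := by
  set R := Subgroup.normalClosure (B : Set G) with hR
  set D := ⁅X0, X0⁆ with hD
  set D1 := ⁅D, R⁆ with hD1
  set D' := ⁅D1, R⁆ with hD'
  have hBR : B ≤ R := Subgroup.le_normalClosure
  by_contra hne
  have hD1ne : D1 ≠ ⊥ := by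
    intro h0
    apply hne
    rw [eq_bot_iff, ← h0]
    exact Subgroup.commutator_mono le_rfl hBR
  have hD'ne : D' ≠ D1 := hdec D1 inferInstance (Subgroup.commutator_le_left D R) hD1ne
  have key : ∀ b ∈ B, ∀ x ∈ X0, ∀ y ∈ X0, ⁅b, ⁅x, y⁆⁆ ∈ D' := by
    intro b hb
    refine claim_single (R := R) (D1 := D1) hp h hX0p hBR hirr hXB hB2 ?_ ?_ hb
    · intro r hr x hx y hy
      rw [hD1, Subgroup.commutator_comm]
      exact Subgroup.commutator_mem_commutator hr (Subgroup.commutator_mem_commutator hx hy)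
    · intro r hr d hd
      rw [hD', Subgroup.commutator_comm]
      exact Subgroup.commutator_mem_commutator hr hd
  have h1 : ⁅D, B⁆ ≤ D' := by
    rw [Subgroup.commutator_le]
    intro d hd b hb
    have h2 : D ≤ cenMod D' b :=
      Subgroup.commutator_le.mpr (fun x hx y hy => mem_cenMod.mpr (key b hb x hx y hy))
    rw [← commutatorElement_inv]
    exact D'.inv_mem (mem_cenMod.mp (h2 hd))
  have h2 : D1 ≤ D' := commutator_normalClosure_le h1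
  exact hD'ne (le_antisymm (Subgroup.commutator_le_left D1 R) h2)

end claim

end Cfsg.Agent.H12
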