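import Mathlib
import Cfsg.Agent.H12.K5b

set_option autoImplicit false

/-! The members of the K-families lie in `O_p(G)` when `G` is constrained and stable on the chief factors. -/

namespace Cfsg.Agent.H12

open Cfsg
open scoped commutatorElement

section K5c

variable {G : Type*} [Group G] {p : ℕ}

/-- the context: `A` "critical" in `O_p(G)`, `G` constrained, cubic elements of `S` stable on the chief factors in `A` -/
structure KCtx (p : ℕ) (S A : Subgroup G) : Prop where
  hAn : A.Normal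
  hAT' : A ≤ pCore p G
  hc : Subgroup.centralizer (pCore p G : Set G) ≤ pCore p G
  hAT : ⁅A, pCore p G⁆ ≤ A ⊓ Subgroup.centralizer (A : Set G)
  hC : pCore p G ⊓ Subgroup.centralizer (A : Set G) ≤ A ⊓ Subgroup.centralizer (A : Set G)
  hH : ∀ b ∈ S, iterCommutator A (Subgroup.zpowers b) 3 = ⊥ →
    ⁅⁅A ⊓ Subgroup.centralizer (A : Set G), Subgroup.zpowers b⁆, Subgroup.zpowers b⁆ = ⊥ →
    ∀ U V : Subgroup G, IsChiefFactor U V → U ≤ A → ⁅⁅U, Subgroup.zpowers b⁆, Subgroup.zpowers b⁆ ≤ V →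
      ⁅U, Subgroup.zpowers b⁆ ≤ V

lemma eq_one_of_mem_of_coprime {T : Subgroup G} (hT : IsPGroup p T) {x : G} (hx : x ∈ T)
    (hco : (orderOf x).Coprime p) : x = 1 := by
  obtain ⟨k, hk⟩ := hT ⟨x, hx⟩
  have hk' : x ^ p ^ k = 1 := congrArg Subtype.val hk
  have h7 : orderOf x ∣ p ^ k := orderOf_dvd_of_pow_eq_one hk'
  have h8 : orderOf x ∣ 1 := by
    have := Nat.Coprime.pow_right k hco
    exact (Nat.Coprime.dvd_of_dvd_mul_right this (by simpa using h7))
  exact orderOf_eq_one_iff.mp (Nat.dvd_one.mp h8)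

variable [Finite G] [Fact p.Prime] {S A : Subgroup G}

lemma KCtx.mem_of_quad (ctx : KCtx p S A) {b : G} (hb : b ∈ S)
    (h1 : ⁅⁅A, Subgroup.zpowers b⁆, Subgroup.zpowers b⁆ ≤ A ⊓ Subgroup.centralizer (A : Set G))
    (h3 : iterCommutator A (Subgroup.zpowers b) 3 = ⊥)
    (h2 : ⁅⁅A ⊓ Subgroup.centralizer (A : Set G), Subgroup.zpowers b⁆, Subgroup.zpowers b⁆ = ⊥) : b ∈ pCore p G := by
  have := ctx.hAn
  have h4 : Subgroup.zpowers b ≤ pCore p G :=
    le_pCore_of_chief_trivial' A _ ctx.hAT' ctx.hc ctx.hAT ctx.hC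
      (fun U V hUV hU => ctx.hH b hb h3 h2 U V hUV hU (quad_on_chief A _ h1 h2 hUV hU))
  exact h4 (Subgroup.mem_zpowers b)

/-- test subgroups for `A` -/
lemma KCtx.test_le (ctx : KCtx p S A) {A₁ : Subgroup G} (hA₁S : A₁ ≤ S) (hA₁ : A₁ ∈ classTwoSubgroups G)
    (hN : A ≤ Subgroup.normalizer (A₁ : Set G)) (hc : ⁅A, ⁅A₁, A₁⁆⁆ = ⊥)
    (hq : ⁅⁅A ⊓ Subgroup.centralizer (A : Set G), A₁⁆, A₁⁆ = ⊥) : A₁ ≤ pCore p G := by
  have := ctx.hAn
  intro b hb
  have hb' : Subgroup.zpowers b ≤ A₁ := (Subgroup.zpowers_le).mpr hb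
  have hAA₁ : ⁅A, Subgroup.zpowers b⁆ ≤ A₁ :=
    (Subgroup.commutator_mono le_rfl hb').trans (comm_le_right_of_le_normalizer hN)
  apply ctx.mem_of_quad (hA₁S hb)
  · apply le_inf
    · exact (Subgroup.commutator_mono (Subgroup.commutator_le_left A _) le_rfl).trans (Subgroup.commutator_le_left A _)
    · refine (Subgroup.commutator_mono hAA₁ hb').trans ?_
      rw [← Subgroup.le_centralizer_iff]
      exact Subgroup.commutator_eq_bot_iff_le_centralizer.mp hc
  · rw [eq_bot_iff, ← classTwo_triple hA₁]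
    change ⁅⁅⁅A, Subgroup.zpowers b⁆, Subgroup.zpowers b⁆, Subgroup.zpowers b⁆ ≤ _
    exact Subgroup.commutator_mono (Subgroup.commutator_mono hAA₁ hb') hb'
  · rw [eq_bot_iff, ← hq]
    exact Subgroup.commutator_mono (Subgroup.commutator_mono le_rfl hb') hb'

/-- members of the upper star families -/
lemma KCtx.upperStar_le (ctx : KCtx p S A) {B : Subgroup G} (hBS : B ≤ S)
    (hB3 : ⁅B, A⁆ ≤ B ⊓ Subgroup.centralizer (B : Set G)) : B ≤ pCore p G := by
  have := ctx.hAn
  intro b hb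
  have hb' : Subgroup.zpowers b ≤ B := (Subgroup.zpowers_le).mpr hb
  have h1 : ⁅⁅A, Subgroup.zpowers b⁆, Subgroup.zpowers b⁆ = ⊥ := by
    rw [eq_bot_iff, ← center_comm B]
    refine Subgroup.commutator_mono ?_ hb'
    rw [Subgroup.commutator_comm]
    exact (Subgroup.commutator_mono hb' le_rfl).trans hB3
  apply ctx.mem_of_quad (hBS hb)
  · rw [h1]; exact bot_le
  · change ⁅⁅⁅A, Subgroup.zpowers b⁆, Subgroup.zpowers b⁆, Subgroup.zpowers b⁆ = ⊥
    rw [h1]; exact Subgroup.commutator_bot_left _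
  · rw [eq_bot_iff, ← h1]
    exact Subgroup.commutator_mono (Subgroup.commutator_mono inf_le_left le_rfl) le_rfl

set_option maxHeartbeats 1600000 in
/-- members of the lower star families -/
theorem KCtx.lowerStar_le (hp : p ≠ 2) (ctx : KCtx p S A) {Q B : Subgroup G} (hAQ : A ≤ Q)
    (hB : B ∈ kLowerStarFamily Q) (hBS : B ≤ S) : B ≤ pCore p G := by
  have hAn := ctx.hAn
  obtain ⟨hB2, hQB, htest⟩ := hB
  have hTn : (pCore p G).Normal := by
    have := pCore_characteristic p G
    exact Subgroup.normal_of_characteristic _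
  set T := pCore p G with hT
  have hTp : IsPGroup p T := pCore_isPGroup p G
  set Z := A ⊓ Subgroup.centralizer (A : Set G) with hZ
  have hZn : Z.Normal := inferInstance
  have hZc : IsMulCommutative Z := center_isMulCommutative A
  have hZZ : ⁅Z, Z⁆ = ⊥ := Subgroup.commutator_eq_bot_iff_le_centralizer.mpr (abelian_le_centralizer Z hZc)
  have hAB : A ≤ Subgroup.normalizer (B : Set G) := hAQ.trans hQB
  have hAA : ⁅A, A⁆ ≤ Z := (Subgroup.commutator_mono le_rfl ctx.hAT').trans ctx.hAT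
  -- step 0
  have hcub : ∀ b ∈ B, iterCommutator A (Subgroup.zpowers b) 3 = ⊥ := by
    intro b hb
    have hb' : Subgroup.zpowers b ≤ B := (Subgroup.zpowers_le).mpr hb
    rw [eq_bot_iff, ← classTwo_triple hB2]
    change ⁅⁅⁅A, Subgroup.zpowers b⁆, Subgroup.zpowers b⁆, Subgroup.zpowers b⁆ ≤ _
    refine Subgroup.commutator_mono (Subgroup.commutator_mono ?_ hb') hb'
    exact (Subgroup.commutator_mono le_rfl hb').trans (comm_le_right_of_le_normalizer hAB)
  have hBZ : ⁅B, Z⁆ ≤ B ⊓ Subgroup.centralizer (B : Set G) := by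
    apply htest Z (abelian_normal_mem_classTwo Z hZc) (inf_le_left.trans hAQ)
    · rw [Subgroup.normalizer_eq_top]; exact le_top
    · rw [hZZ]; exact Subgroup.commutator_bot_right B
    · rw [eq_bot_iff, ← hZZ]
      exact Subgroup.commutator_mono (Subgroup.commutator_le_right _ Z) le_rfl
  have hqz : ∀ b ∈ B, ⁅⁅Z, Subgroup.zpowers b⁆, Subgroup.zpowers b⁆ = ⊥ := by
    intro b hb
    have hb' : Subgroup.zpowers b ≤ B := (Subgroup.zpowers_le).mpr hb
    rw [eq_bot_iff, ← center_comm B]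
    refine Subgroup.commutator_mono ?_ hb'
    rw [Subgroup.commutator_comm]
    exact (Subgroup.commutator_mono hb' le_rfl).trans hBZ
  -- step 1
  have hZB : B ⊓ Subgroup.centralizer (B : Set G) ≤ T := by
    intro g hg
    have hg' : Subgroup.zpowers g ≤ B ⊓ Subgroup.centralizer (B : Set G) := (Subgroup.zpowers_le).mpr hg
    have h1 : ⁅⁅A, Subgroup.zpowers g⁆, Subgroup.zpowers g⁆ = ⊥ := by
      rw [eq_bot_iff, ← center_comm B, Subgroup.commutator_comm _ B]
      refine Subgroup.commutator_mono ?_ hg'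
      exact (Subgroup.commutator_mono le_rfl (hg'.trans inf_le_left)).trans (comm_le_right_of_le_normalizer hAB)
    apply ctx.mem_of_quad (hBS hg.1)
    · rw [h1]; exact bot_le
    · exact hcub g hg.1
    · exact hqz g hg.1
  -- step 2
  set R := Subgroup.normalClosure (B : Set G) with hR
  have hBR : B ≤ R := Subgroup.le_normalClosure
  have hlift : ∀ U V : Subgroup G, IsChiefFactor U V → (∀ b ∈ B, ⁅U, Subgroup.zpowers b⁆ ≤ V) → ⁅U, R⁆ ≤ V := by
    intro U V hUV h
    have := hUV.2.1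
    have := hUV.2.2.1
    apply commutator_normalClosure_le
    rw [Subgroup.commutator_le]
    intro u hu b hb
    exact h b hb (Subgroup.commutator_mem_commutator hu (Subgroup.mem_zpowers b))
  have hRZ : ∀ U V : Subgroup G, IsChiefFactor U V → U ≤ Z → ⁅U, R⁆ ≤ V := by
    intro U V hUV hU
    apply hlift U V hUV
    intro b hb
    apply ctx.hH b (hBS hb) (hcub b hb) (hqz b hb) U V hUV (hU.trans inf_le_left)
    refine le_trans ?_ (bot_le : (⊥ : Subgroup G) ≤ V)
    rw [← hqz b hb]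
    exact Subgroup.commutator_mono (Subgroup.commutator_mono hU le_rfl) le_rfl
  -- step 3
  set O := ppGen p R with hO
  have hOR : O ≤ R := ppGen_le p R
  have hOZ : Z ≤ Subgroup.centralizer (O : Set G) :=
    pprime_centralizes Z R (hTp.to_le (inf_le_left.trans ctx.hAT')) hRZ
  -- step 4
  set Y := A ⊓ Subgroup.centralizer (O : Set G) with hY
  have hYn : Y.Normal := inferInstance
  have hZY : Z ≤ Y := le_inf inf_le_left hOZ
  have hYp : IsPGroup p Y := hTp.to_le (inf_le_left.trans ctx.hAT')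
  have hOY : O ≤ Subgroup.centralizer (Y : Set G) := by
    rw [Subgroup.le_centralizer_iff]; exact inf_le_right
  by_cases hYA : Y = A
  · have h1 : O ≤ T := by
      refine le_trans ?_ (centralizer_le_pCore A ctx.hAT' ctx.hc ctx.hAT ctx.hC)
      rw [← hYA]; exact hOY
    refine hBR.trans (le_pCore inferInstance (isPGroup_of_pprime_trivial ?_))
    intro x hx hco
    exact eq_one_of_mem_of_coprime hTp (h1 (Subgroup.subset_closure ⟨hx, hco⟩)) hco
  exfalso
  have hlt : Y < A := lt_of_le_of_ne inf_le_left hYA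
  obtain ⟨X, hXY, hXA⟩ := exists_chief_above hYn hAn hlt
  have hXn : X.Normal := hXY.2.1
  set X0 := ⁅X, O⁆ with hX0
  have hX0n : X0.Normal := inferInstance
  have hX0X : X0 ≤ X := Subgroup.commutator_le_left X O
  have h5a : ¬ X0 ≤ Y := by
    intro hle
    have h1 : X ≤ Subgroup.centralizer (O : Set G) := by
      apply le_centralizer_ppGen
      intro x hx hco
      have hxO : x ∈ O := Subgroup.subset_closure ⟨hx, hco⟩
      apply coprime_centralizes (Y := Y) hYp _ (hOY hxO) hco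
      exact (Subgroup.commutator_mono le_rfl ((Subgroup.zpowers_le).mpr hxO)).trans hle
    exact absurd hXY.1 (not_lt_of_ge (le_inf hXA h1))
  have h5b : X0 ⊔ Y = X := by
    rcases hXY.2.2.2 (X0 ⊔ Y) inferInstance le_sup_right (sup_le hX0X hXY.1.le) with h | h
    · exact absurd (h ▸ le_sup_left) h5a
    · exact h
  have h5c : ⁅X0, Y⁆ = ⊥ := by
    apply Subgroup.commutator_commutator_eq_bot_of_rotate
    · have : ⁅O, Y⁆ = ⊥ := Subgroup.commutator_eq_bot_iff_le_centralizer.mpr hOY
      rw [this]; exact Subgroup.commutator_bot_left _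
    · rw [Subgroup.commutator_eq_bot_iff_le_centralizer]
      exact ((Subgroup.commutator_mono inf_le_left hXA).trans hAA).trans hOZ
  set Y0 := X0 ⊓ Y with hY0
  have hY0n : Y0.Normal := inferInstance
  have hX0A : X0 ≤ A := hX0X.trans hXA
  have hDZ : ⁅X0, X0⁆ ≤ Z := (Subgroup.commutator_mono hX0A hX0A).trans hAA
  have hC2 : C2 X0 Y0 := by
    refine ⟨inf_le_left, ?_, ?_⟩
    · intro z hz x hx
      exact (Subgroup.mem_centralizer_iff.mp (Subgroup.commutator_eq_bot_iff_le_centralizer.mp h5c hx)) z hz.2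
    · intro x hx y hy
      have h1 : ⁅x, y⁆ ∈ ⁅X0, X0⁆ := Subgroup.commutator_mem_commutator hx hy
      exact ⟨Subgroup.commutator_le_left X0 X0 h1, hZY (hDZ h1)⟩
  have hirr : ∀ M : Subgroup G, M.Normal → Y0 ≤ M → M ≤ X0 → M = Y0 ∨ M = X0 := by
    intro M hM hYM hMX
    rcases hXY.2.2.2 (M ⊔ Y) inferInstance le_sup_right (sup_le (hMX.trans hX0X) hXY.1.le) with h | h
    · left
      exact le_antisymm (le_inf hMX (h ▸ le_sup_left)) hYM
    · right
      apply le_antisymm hMX
      intro x hx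
      have hx' : x ∈ M ⊔ Y := by rw [h]; exact hX0X hx
      obtain ⟨m, hm, y, hy, rfl⟩ := Subgroup.mem_sup_of_normal_right.mp hx'
      have hy' : y ∈ X0 := by
        have := X0.mul_mem (X0.inv_mem (hMX hm)) hx
        simpa using this
      exact M.mul_mem hm (hYM ⟨hy', hy⟩)
  have hclaim : ⁅⁅X0, X0⁆, B⁆ = ⊥ := by
    apply claim_comm hp hC2 (hTp.to_le (hX0A.trans ctx.hAT')) hirr (hX0A.trans hAB) hB2
    intro E hE hED hEne heq
    obtain ⟨V, hEV⟩ := exists_chief_below hE hEne
    have := hRZ E V hEV (hED.trans hDZ)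
    rw [heq] at this
    exact absurd hEV.1 (not_lt_of_ge this)
  have h5g : ⁅B, X0⁆ ≤ B ⊓ Subgroup.centralizer (B : Set G) := by
    apply htest X0 _ (hX0A.trans hAQ)
    · rw [Subgroup.normalizer_eq_top]; exact le_top
    · rw [Subgroup.commutator_comm]; exact hclaim
    · rw [eq_bot_iff, ← center_comm A]
      refine Subgroup.commutator_mono ?_ hX0A
      rw [Subgroup.commutator_comm]
      exact (Subgroup.commutator_mono hX0A hZB).trans ctx.hAT
    · exact hDZ.trans (inf_le_right.trans (Subgroup.centralizer_le hX0A))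
  have hquad : ∀ b ∈ B, ⁅⁅X, Subgroup.zpowers b⁆, Subgroup.zpowers b⁆ ≤ Y := by
    intro b hb
    have hb' : Subgroup.zpowers b ≤ B := (Subgroup.zpowers_le).mpr hb
    have h1 : iterCommutator X0 (Subgroup.zpowers b) 2 ≤ Y := by
      refine le_trans ?_ (bot_le : (⊥ : Subgroup G) ≤ Y)
      rw [← center_comm B]
      refine Subgroup.commutator_mono ?_ hb'
      change ⁅X0, Subgroup.zpowers b⁆ ≤ _
      rw [Subgroup.commutator_comm]
      exact (Subgroup.commutator_mono hb' le_rfl).trans h5g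
    have e1 : X.map (QuotientGroup.mk' Y) = X0.map (QuotientGroup.mk' Y) := by
      conv_lhs => rw [← h5b]
      rw [Subgroup.map_sup]
      have : Y.map (QuotientGroup.mk' Y) = ⊥ := by
        rw [Subgroup.map_eq_bot_iff, QuotientGroup.ker_mk']
      rw [this, sup_bot_eq]
    change iterCommutator X (Subgroup.zpowers b) 2 ≤ Y
    rw [iterCommutator_le_normal_iff, e1, ← iterCommutator_le_normal_iff]
    exact h1
  apply h5a
  refine (Subgroup.commutator_mono le_rfl hOR).trans (hlift X Y hXY ?_)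
  intro b hb
  exact ctx.hH b (hBS hb) (hcub b hb) (hqz b hb) X Y hXY hXA (hquad b hb)

end K5c

end Cfsg.Agent.H12
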