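import Mathlib
import Cfsg.Agent.H12.K5c

set_option autoImplicit false

/-! The stable K-infinity theorem. -/

namespace Cfsg.Agent.H12

open Cfsg
open scoped commutatorElement

universe u

section KB'

variable {S : Type*} [Group S]

/-- the K-sequence lies in `T` as soon as the relevant members of the families do -/
theorem kSeq_le_of_detect' (T A : Subgroup S) [A.Normal] (hA2 : A ∈ classTwoSubgroups S)
    (hAT : ⁅A, T⁆ ≤ A ⊓ Subgroup.centralizer (A : Set S))
    (d1 : ∀ A₁ ∈ classTwoSubgroups S, A ≤ Subgroup.normalizer (A₁ : Set S) → ⁅A, ⁅A₁, A₁⁆⁆ = ⊥ →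
      ⁅⁅A ⊓ Subgroup.centralizer (A : Set S), A₁⁆, A₁⁆ = ⊥ → A₁ ≤ T)
    (d2 : ∀ Q : Subgroup S, A ≤ Q → ∀ B ∈ kLowerStarFamily Q, B ≤ T)
    (d3 : ∀ B : Subgroup S, ⁅B, A⁆ ≤ B ⊓ Subgroup.centralizer (B : Set S) → B ≤ T) (n : ℕ) :
    kSeqEven S n ≤ T ∧ kSeqOdd S (n + 1) ≤ T := by
  have hAL : ∀ Q : Subgroup S, A ∈ kLowerStarFamily Q := by
    intro Q
    refine ⟨hA2, by rw [Subgroup.normalizer_eq_top]; exact le_top, fun A₁ hA₁ _ hN hc hq => ?_⟩
    exact (Subgroup.commutator_mono le_rfl (d1 A₁ hA₁ hN hc hq)).trans hAT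
  have hE : ∀ n, A ≤ kSeqOdd S n → kSeqEven S n ≤ T := fun n hAn => sSup_le (fun B hB => d2 _ hAn B hB)
  have hO : ∀ n, kSeqOdd S (n + 1) ≤ T := by
    intro n
    rw [kSeqOdd_succ]
    refine sSup_le ?_
    rintro B ⟨_, hB3⟩
    have hAE : A ≤ kSeqEven S n := le_sSup (hAL _)
    exact d3 B ((Subgroup.commutator_mono le_rfl hAE).trans hB3)
  have hA : ∀ n, A ≤ kSeqOdd S n := by
    intro n
    induction n with
    | zero => exact le_top
    | succ n ih =>
      rw [kSeqOdd_succ]
      exact le_sSup ⟨hA2, (Subgroup.commutator_mono le_rfl (hE n ih)).trans hAT⟩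
  exact ⟨hE n (hA n), hO n⟩

end KB'

section main

variable {G : Type u} [Group G] [Finite G] {p : ℕ} [Fact p.Prime]

theorem KCtx.kSeq_le (hp : p ≠ 2) {S A : Subgroup G} (ctx : KCtx p S A) (hTS : pCore p G ≤ S) (n : ℕ) :
    kSeqEven ↥S n ≤ (pCore p G).subgroupOf S ∧ kSeqOdd ↥S (n + 1) ≤ (pCore p G).subgroupOf S := by
  have hAn := ctx.hAn
  have hAS : A ≤ S := ctx.hAT'.trans hTS
  have hinj := S.subtype_injective
  set T := pCore p G with hT
  have eA : (A.subgroupOf S).map S.subtype = A := Subgroup.map_subgroupOf_eq_of_le hAS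
  have eT : (T.subgroupOf S).map S.subtype = T := Subgroup.map_subgroupOf_eq_of_le hTS
  have hA2 : ⁅A, A⁆ ≤ Subgroup.centralizer (A : Set G) :=
    ((Subgroup.commutator_mono le_rfl ctx.hAT').trans ctx.hAT).trans inf_le_right
  have hle : ∀ B : Subgroup ↥S, B.map S.subtype ≤ T → B ≤ T.subgroupOf S := by
    intro B h
    rw [← Subgroup.map_le_map_iff_of_injective hinj, eT]
    exact h
  apply kSeq_le_of_detect' (T.subgroupOf S) (A.subgroupOf S)
  · rw [← map_mem_classTwo_iff S.subtype hinj, eA]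
    exact hA2
  · rw [← Subgroup.map_le_map_iff_of_injective hinj, Subgroup.map_commutator, map_inf_centralizer _ hinj, eA, eT]
    exact ctx.hAT
  · intro A₁ hA₁ hN hc hq
    apply hle
    apply ctx.test_le (Subgroup.map_subtype_le _) ((map_mem_classTwo_iff S.subtype hinj A₁).mpr hA₁)
    · rw [← eA, map_le_normalizer_map_iff _ hinj]; exact hN
    · have := congrArg (Subgroup.map S.subtype) hc
      rw [Subgroup.map_commutator, Subgroup.map_commutator, eA, Subgroup.map_bot] at this
      exact this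
    · have := congrArg (Subgroup.map S.subtype) hq
      rw [Subgroup.map_commutator, Subgroup.map_commutator, map_inf_centralizer _ hinj, eA, Subgroup.map_bot] at this
      exact this
  · intro Q hAQ B hB
    apply hle
    apply ctx.lowerStar_le hp (Q := Q.map S.subtype) _ ((map_mem_lowerStar_iff S.subtype hinj B Q).mpr hB)
      (Subgroup.map_subtype_le _)
    rw [← eA]
    exact Subgroup.map_mono hAQ
  · intro B hB
    apply hle
    apply ctx.upperStar_le (Subgroup.map_subtype_le _)
    have := Subgroup.map_mono (f := S.subtype) hB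
    rw [Subgroup.map_commutator, map_inf_centralizer _ hinj, eA] at this
    exact this

/-- both K-infinity subgroups are normal in the stable constrained situation -/
theorem KCtx.normal (hp : p ≠ 2) {S : Sylow p G} {A : Subgroup G} (ctx : KCtx p (S : Subgroup G) A) :
    (inducedFunctor kInfLower (S : Subgroup G)).Normal ∧ (inducedFunctor kInfUpper (S : Subgroup G)).Normal := by
  have hTS : pCore p G ≤ S := pCore_le_sylow S
  have h1 := kInf_eq_of_le (S : Subgroup G) (pCore p G) S.2 hTS (ctx.kSeq_le hp hTS)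
  have : (pCore p G).Normal := by
    have := pCore_characteristic p G
    exact Subgroup.normal_of_characteristic _
  rw [h1.1, h1.2]
  exact ⟨inducedFunctor_normal isCharPFunctor_kInfLower _ (pCore_isPGroup p G),
    inducedFunctor_normal isCharPFunctor_kInfUpper _ (pCore_isPGroup p G)⟩

end main

end Cfsg.Agent.H12
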