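import Mathlib
import Cfsg.Agent.H12.K5d
import Cfsg.Agent.H17.ZJClosed
import Cfsg.Agent.Lib.Helper13.PStab6

set_option autoImplicit false

/-! Stability on chief factors; normality of the K-infinity subgroups in stable constrained groups. -/

namespace Cfsg.Agent.H12

open Cfsg
open scoped commutatorElement

universe u

section stable

variable {G : Type u} [Group G] [Finite G] {p : ℕ} [Fact p.Prime]

/-- a quadratic element acts trivially on a chief factor if the quotient is `p`-stable -/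
theorem stable_chief {U V : Subgroup G} (hUV : IsChiefFactor U V) (hUp : IsPGroup p U) [hV : V.Normal]
    (hst : IsNormalizerPStable p (G ⧸ V)) {b : G}
    (hq : ⁅⁅U, Subgroup.zpowers b⁆, Subgroup.zpowers b⁆ ≤ V) : ⁅U, Subgroup.zpowers b⁆ ≤ V := by
  obtain ⟨hlt, hUn, -, hmin⟩ := hUV
  set π := QuotientGroup.mk' V with hπ
  have hπs : Function.Surjective π := QuotientGroup.mk'_surjective V
  have hker : π.ker = V := QuotientGroup.ker_mk' V
  set P := U.map π with hP
  have hPn : P.Normal := hUn.map π hπs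
  have hPp : IsPGroup p P := hUp.map π
  have h1 := Cfsg.Agent.H17.isPStableOn_of_normalizerPStable hst P hPp (π b) (by
    rw [← MonoidHom.map_zpowers, hP, ← Subgroup.map_commutator, ← Subgroup.map_commutator,
      Subgroup.map_eq_bot_iff, hker]
    exact hq)
  set L := Cfsg.Agent.Lib.Helper13.stabD p P with hL
  have hLn : L.Normal := Cfsg.Agent.Lib.Helper13.stabD_normal P
  have hbL : π b ∈ L := h1
  obtain ⟨P₀⟩ : Nonempty (Sylow p (G ⧸ V)) := inferInstance
  have h2 : ⁅P, L⁆ ≤ ⁅P, (P₀ : Subgroup (G ⧸ V))⁆ := by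
    rw [Subgroup.commutator_le]
    intro x hx a ha
    obtain ⟨s, hs, c, hc, rfl⟩ := Cfsg.Agent.Lib.Helper13.exists_of_mem_stabD P₀ ha
    have hcx : x⁻¹ * c = c * x⁻¹ := (Subgroup.mem_centralizer_iff.mp hc) x⁻¹ (P.inv_mem hx)
    have e : ⁅x, s * c⁆ = ⁅x, s⁆ := by
      rw [commutatorElement_def, commutatorElement_def]
      calc x * (s * c) * x⁻¹ * (s * c)⁻¹ = x * s * (c * x⁻¹) * c⁻¹ * s⁻¹ := by group
        _ = x * s * (x⁻¹ * c) * c⁻¹ * s⁻¹ := by rw [hcx]
        _ = x * s * x⁻¹ * s⁻¹ := by group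
    rw [e]
    exact Subgroup.commutator_mem_commutator hx hs
  have hPP₀ : P ≤ P₀ := hPp.le_sylow_of_normal P₀
  have h3 : ⁅P, L⁆ = ⊥ := by
    have hMn : ((⁅P, L⁆ : Subgroup (G ⧸ V)).comap π).Normal := inferInstance
    have hVM : V ≤ (⁅P, L⁆ : Subgroup (G ⧸ V)).comap π := hker.ge.trans (Subgroup.ker_le_comap π _)
    have hMU : (⁅P, L⁆ : Subgroup (G ⧸ V)).comap π ≤ U := by
      have h4 := Subgroup.comap_mono (f := π) (Subgroup.commutator_le_left P L)
      rw [hP, Subgroup.comap_map_eq, hker, sup_eq_left.mpr hlt.le] at h4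
      exact h4
    rcases hmin _ hMn hVM hMU with h | h
    · have h5 := congrArg (Subgroup.map π) h
      rw [Subgroup.map_comap_eq_self_of_surjective hπs] at h5
      rw [h5, Subgroup.map_eq_bot_iff, hker]
    · exfalso
      have h5 := congrArg (Subgroup.map π) h
      rw [Subgroup.map_comap_eq_self_of_surjective hπs] at h5
      have h6 : P ≤ ⊥ ⊔ ⁅P, (P₀ : Subgroup (G ⧸ V))⁆ := by
        rw [bot_sup_eq]
        exact h5.ge.trans h2
      have h7 := Cfsg.Agent.Lib.Helper13.le_of_le_sup_commutator P₀.2 hPP₀ h6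
      have h8 : U ≤ V := hker.le.trans' ((Subgroup.map_eq_bot_iff U).mp (le_bot_iff.mp h7))
      exact absurd hlt (not_lt_of_ge h8)
  refine hker.le.trans' ((Subgroup.map_eq_bot_iff _).mp ?_)
  rw [Subgroup.map_commutator, MonoidHom.map_zpowers, eq_bot_iff, ← h3]
  exact Subgroup.commutator_mono le_rfl ((Subgroup.zpowers_le).mpr hbL)

/-- the K-infinity subgroups are normal in a constrained group all of whose quotients are `p`-stable -/
theorem kInf_normal_of_stable (hp : p ≠ 2) (S : Sylow p G)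
    (hc : Subgroup.centralizer (pCore p G : Set G) ≤ pCore p G)
    (hst : ∀ (N : Subgroup G) [N.Normal], IsNormalizerPStable p (G ⧸ N)) :
    (inducedFunctor kInfLower (S : Subgroup G)).Normal ∧ (inducedFunctor kInfUpper (S : Subgroup G)).Normal := by
  obtain ⟨A, hAn, hAT', h1, h2⟩ := exists_critical_pCore p G
  refine KCtx.normal hp (A := A) ⟨hAn, hAT', hc, h1, h2, ?_⟩
  intro b _ _ _ U V hUV hU hq
  have := hUV.2.2.1
  exact stable_chief hUV ((pCore_isPGroup p G).to_le (hU.trans hAT')) (hst V) hq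

end stable

end Cfsg.Agent.H12
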