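import Mathlib
import Cfsg.Agent.H12.K5e
import Cfsg.Agent.H12.Dk26

set_option autoImplicit false

/-! Sections of `Qd(p)`-free groups; transport of control of strong fusion. -/

namespace Cfsg.Agent.H12

open Cfsg
open scoped commutatorElement

universe u

section transport

variable {p : ℕ} [Fact p.Prime]

theorem controlsStrongFusion_map {X Y : Type*} [Group X] [Group Y] [Finite X] (e : X ≃* Y) {U : Subgroup X}
    (h : ControlsStrongFusion p U) : ControlsStrongFusion p (U.map e.toMonoidHom) := by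
  obtain ⟨T, hUT, hc⟩ := h
  refine ⟨T.mapSurjective (f := e.toMonoidHom) e.surjective, Subgroup.map_mono hUT, ?_⟩
  intro A hA
  refine ⟨hA, ?_⟩
  intro g hg
  have hmem : ∀ y : Y, y ∈ (T : Subgroup X).map e.toMonoidHom → e.symm y ∈ (T : Subgroup X) := by
    rintro _ ⟨x, hx, rfl⟩
    have : e.symm (e.toMonoidHom x) = x := e.symm_apply_apply x
    rw [this]; exact hx
  obtain ⟨x, hx, hx'⟩ := (hc (e.symm '' A) (by
    rintro _ ⟨a, ha, rfl⟩
    exact hmem a (hA ha))).2 (e.symm g) (by
    rintro _ ⟨_, ⟨a, ha, rfl⟩, rfl⟩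
    have h1 := hmem _ (hg ⟨a, ha, rfl⟩)
    rw [map_mul, map_mul, map_inv] at h1
    exact h1)
  refine ⟨e x, ?_, ?_⟩
  · have := Subgroup.le_normalizer_map e.toMonoidHom (Subgroup.mem_map_of_mem e.toMonoidHom hx)
    exact this
  · intro a ha
    have h1 := hx' (e.symm a) ⟨a, ha, rfl⟩
    have h2 := congrArg e h1
    simpa using h2

theorem controls_of_sections {G : Type u} [Group G] [Finite G] {W : ∀ (Q : Type u) [Group Q], Subgroup Q}
    (hW : IsCharPFunctor.{u} p W)
    (h : ∀ (K R : Subgroup G) [hR : (R.subgroupOf K).Normal], ∀ T : Sylow p (↥K ⧸ R.subgroupOf K),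
      ControlsStrongFusion p (inducedFunctor (G := (↥K ⧸ R.subgroupOf K)) W (T : Subgroup (↥K ⧸ R.subgroupOf K))))
    (S : Sylow p G) : ControlsStrongFusion p (inducedFunctor W (S : Subgroup G)) := by
  obtain ⟨K, R, hR, ⟨e⟩⟩ := (IsSec.refl G).exists_official
  have h1 := controlsStrongFusion_map e (h K R (S.mapSurjective (f := e.symm.toMonoidHom) e.symm.surjective))
  have h2 : ((S.mapSurjective (f := e.symm.toMonoidHom) e.symm.surjective : Sylow p (↥K ⧸ R.subgroupOf K)) :
      Subgroup (↥K ⧸ R.subgroupOf K)) = (S : Subgroup G).map e.symm.toMonoidHom := rfl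
  rw [h2, inducedFunctor_map hW _ _ (S.2.map _) e.injective.injOn, Subgroup.map_map] at h1
  have h3 : (S : Subgroup G).map (e.toMonoidHom.comp e.symm.toMonoidHom) = S := by
    have : e.toMonoidHom.comp e.symm.toMonoidHom = MonoidHom.id G := by
      ext x; simp
    rw [this, Subgroup.map_id]
  rw [h3] at h1
  exact h1

end transport

section qd

variable {G : Type u} [Group G] [Finite G] {p : ℕ} [Fact p.Prime]

theorem not_involves_of_stable (hp : p ≠ 2)
    (h : ∀ (K R : Subgroup G) [hR : (R.subgroupOf K).Normal], IsNormalizerPStable p (↥K ⧸ R.subgroupOf K)) :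
    ¬ Involves ↥(qd p) G := by
  rintro ⟨K, R, hR, ⟨e⟩⟩
  exact ((Dk.qdData p).mapInj e.symm.toMonoidHom e.symm.injective).not_stable hp (h K R)

theorem stable_quotient_of_qd_free (hp : p ≠ 2) (h : ¬ Involves ↥(qd p) G) (K R : Subgroup G)
    [hR : (R.subgroupOf K).Normal] (N : Subgroup (↥K ⧸ R.subgroupOf K)) [N.Normal] :
    IsNormalizerPStable p ((↥K ⧸ R.subgroupOf K) ⧸ N) := by
  by_contra hcon
  exact h (Dk.involves_section K R (Dk.involves_of_surjective (Dk.cq_of_not_stable hp hcon).1 (QuotientGroup.mk' N)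
    (QuotientGroup.mk'_surjective N)))

theorem kInf_normal_section (hp : p ≠ 2) (h : ¬ Involves ↥(qd p) G) (K R : Subgroup G)
    [hR : (R.subgroupOf K).Normal]
    (hc : Subgroup.centralizer ((pCore p (↥K ⧸ R.subgroupOf K) : Subgroup (↥K ⧸ R.subgroupOf K)) : Set (↥K ⧸ R.subgroupOf K))
      ≤ pCore p (↥K ⧸ R.subgroupOf K)) (T : Sylow p (↥K ⧸ R.subgroupOf K)) :
    (inducedFunctor (G := (↥K ⧸ R.subgroupOf K)) kInfLower (T : Subgroup (↥K ⧸ R.subgroupOf K))).Normal ∧
    (inducedFunctor (G := (↥K ⧸ R.subgroupOf K)) kInfUpper (T : Subgroup (↥K ⧸ R.subgroupOf K))).Normal :=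
  kInf_normal_of_stable hp T hc (fun N _ => stable_quotient_of_qd_free hp h K R N)

end qd

end Cfsg.Agent.H12
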