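import Mathlib
import Cfsg.Agent.H12.K4
import Cfsg.Agent.Lib.Helper13.CardSup

set_option autoImplicit false
set_option linter.unusedSectionVars false

/-! Maximal members of the `K`-families are self-centralizing. -/

namespace Cfsg.Agent.H12

open Cfsg Subgroup
open scoped commutatorElement

variable {P : Type*} [Group P]

lemma normalizer_le_normalizer_centralizer' (B : Subgroup P) :
    normalizer (B : Set P) ≤ normalizer ((centralizer (B : Set P) : Subgroup P) : Set P) := by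
  have key : ∀ g ∈ normalizer (B : Set P), ∀ c ∈ centralizer (B : Set P), g * c * g⁻¹ ∈ centralizer (B : Set P) := by
    intro g hg c hc
    rw [mem_centralizer_iff]
    intro b hb
    have hb' : g⁻¹ * b * g ∈ B := by
      have := (mem_normalizer_iff.mp (inv_mem hg) b).mp hb
      rwa [inv_inv] at this
    have h1 := mem_centralizer_iff.mp hc _ hb'
    calc b * (g * c * g⁻¹) = g * ((g⁻¹ * b * g) * c) * g⁻¹ := by group
      _ = g * (c * (g⁻¹ * b * g)) * g⁻¹ := by rw [h1]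
      _ = _ := by group
  intro g hg
  rw [mem_normalizer_iff]
  intro c
  refine ⟨key g hg c, fun h => ?_⟩
  have := key g⁻¹ (inv_mem hg) _ h
  rw [inv_inv] at this
  convert this using 1
  group

lemma exists_fixed_mod_center [Finite P] {p : ℕ} [Fact p.Prime] (hP : IsPGroup p P) {B Q : Subgroup P}
    (hQ : Q ≤ normalizer (B : Set P)) (h : ¬ centralizer (B : Set P) ≤ B) :
    ∃ x ∈ centralizer (B : Set P), x ∉ B ∧ ⁅zpowers x, Q⁆ ≤ B ⊓ centralizer (B : Set P) := by
  have hI : ∀ k, iterCommutator (centralizer (B : Set P)) Q k ≤ centralizer (B : Set P) := by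
    intro k
    induction k with
    | zero => exact le_rfl
    | succ k ih =>
      exact (commutator_mono ih le_rfl).trans
        (comm_le_left_of_le_normalizer (hQ.trans (normalizer_le_normalizer_centralizer' B)))
  have hex : ∃ k, iterCommutator (centralizer (B : Set P)) Q k ≤ B := by
    obtain ⟨n, hn⟩ := exists_lcs_eq_bot (W := (⊤ : Subgroup P)) (hP.to_subgroup ⊤)
    refine ⟨n, ?_⟩
    have := (iterCommutator_mono (le_top : centralizer (B : Set P) ≤ ⊤) (le_top : Q ≤ ⊤) n).trans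
      (iterCommutator_le_lcs (le_refl (⊤ : Subgroup P)) n)
    rw [hn] at this
    exact this.trans bot_le
  classical
  have hk := Nat.find_spec hex
  have hmin := fun m => Nat.find_min hex (m := m)
  rcases hk0 : Nat.find hex with _ | j
  · rw [hk0] at hk
    exact absurd hk h
  · rw [hk0] at hk
    have hj := hmin j (by omega)
    obtain ⟨x, hx, hxB⟩ := SetLike.not_le_iff_exists.mp hj
    refine ⟨x, hI j hx, hxB, ?_⟩
    have h1 : ⁅zpowers x, Q⁆ ≤ iterCommutator (centralizer (B : Set P)) Q (j + 1) :=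
      commutator_mono (zpowers_le.mpr hx) le_rfl
    exact le_inf (h1.trans hk) (h1.trans (hI _))

lemma zpowers_le_centralizer_of_mem {B : Subgroup P} {x : P} (hx : x ∈ centralizer (B : Set P)) :
    zpowers x ≤ centralizer (B : Set P) := zpowers_le.mpr hx

lemma comm_sup_zpowers_le {B D M : Subgroup P} {x : P} (hx : x ∈ centralizer (B : Set P)) (hMB : M ≤ B)
    (h1 : ⁅B, D⁆ ≤ M) (h2 : ⁅zpowers x, D⁆ ≤ M) : ⁅B ⊔ zpowers x, D⁆ ≤ M := by
  rw [commutator_le]
  intro y hy d hd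
  rw [sup_comm] at hy
  obtain ⟨c, hc, b, hb, rfl⟩ := Cfsg.Agent.Lib.Helper13.mem_sup_of_le_normalizer
    ((zpowers_le_centralizer_of_mem hx).trans (centralizer_le_normalizer _)) hy
  have hbd : ⁅b, d⁆ ∈ M := h1 (commutator_mem_commutator hb hd)
  have hcd : ⁅c, d⁆ ∈ M := h2 (commutator_mem_commutator hc hd)
  have hcomm := mem_centralizer_iff.mp (zpowers_le_centralizer_of_mem hx hc) _ (hMB hbd)
  have e : ⁅c * b, d⁆ = ⁅b, d⁆ * ⁅c, d⁆ := by
    calc ⁅c * b, d⁆ = (c * ⁅b, d⁆) * c⁻¹ * ⁅c, d⁆ := by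
          simp only [commutatorElement_def]; group
      _ = (⁅b, d⁆ * c) * c⁻¹ * ⁅c, d⁆ := by rw [hcomm]
      _ = _ := by group
  rw [e]
  exact M.mul_mem hbd hcd

lemma zpowers_le_centralizer_sup {B : Subgroup P} {x : P} (hx : x ∈ centralizer (B : Set P)) :
    zpowers x ≤ centralizer ((B ⊔ zpowers x : Subgroup P) : Set P) := by
  rw [le_centralizer_iff]
  refine sup_le ?_ ?_
  · rw [le_centralizer_iff]
    exact zpowers_le_centralizer_of_mem hx
  · rw [zpowers_le, mem_centralizer_iff]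
    rintro _ ⟨k, rfl⟩
    exact ((Commute.refl x).zpow_left k)

lemma center_le_center_sup {B : Subgroup P} {x : P} (hx : x ∈ centralizer (B : Set P)) :
    B ⊓ centralizer (B : Set P) ≤ (B ⊔ zpowers x) ⊓ centralizer ((B ⊔ zpowers x : Subgroup P) : Set P) := by
  refine le_inf (inf_le_left.trans le_sup_left) ?_
  rw [le_centralizer_iff]
  refine sup_le ?_ ?_
  · rw [le_centralizer_iff]
    exact inf_le_right
  · exact (zpowers_le_centralizer_of_mem hx).trans (centralizer_le inf_le_left)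

lemma comm_eq_bot_of_le_centralizer {X Y : Subgroup P} (h : X ≤ centralizer (Y : Set P)) : ⁅X, Y⁆ = ⊥ := by
  rw [commutator_eq_bot_iff_le_centralizer]
  exact h

lemma classTwo_sup_zpowers {B : Subgroup P} (hB : B ∈ classTwoSubgroups P) {x : P}
    (hx : x ∈ centralizer (B : Set P)) : B ⊔ zpowers x ∈ classTwoSubgroups P := by
  have hBB : ⁅B, B⁆ ≤ B ⊓ centralizer (B : Set P) := le_inf (commutator_le_self B) hB
  have h1 : ⁅B ⊔ zpowers x, B⁆ ≤ B ⊓ centralizer (B : Set P) :=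
    comm_sup_zpowers_le hx inf_le_left hBB (by
      rw [comm_eq_bot_of_le_centralizer (zpowers_le_centralizer_of_mem hx)]; exact bot_le)
  have h2 : ⁅B ⊔ zpowers x, B ⊔ zpowers x⁆ ≤ B ⊓ centralizer (B : Set P) :=
    comm_sup_zpowers_le hx inf_le_left (by rw [commutator_comm]; exact h1) (by
      rw [comm_eq_bot_of_le_centralizer (zpowers_le_centralizer_sup hx)]; exact bot_le)
  exact (h2.trans (center_le_center_sup hx)).trans inf_le_right

lemma upperStar_sup_zpowers {B Q : Subgroup P} (hB : B ∈ kUpperStarFamily Q) {x : P}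
    (hx : x ∈ centralizer (B : Set P)) (hxQ : ⁅zpowers x, Q⁆ ≤ B ⊓ centralizer (B : Set P)) :
    B ⊔ zpowers x ∈ kUpperStarFamily Q :=
  ⟨classTwo_sup_zpowers hB.1 hx, (comm_sup_zpowers_le hx inf_le_left hB.2 hxQ).trans (center_le_center_sup hx)⟩

lemma lowerStar_sup_zpowers {B Q : Subgroup P} (hB : B ∈ kLowerStarFamily Q) {x : P}
    (hx : x ∈ centralizer (B : Set P)) (hxQ : ⁅zpowers x, Q⁆ ≤ B ⊓ centralizer (B : Set P)) :
    B ⊔ zpowers x ∈ kLowerStarFamily Q := by
  refine ⟨classTwo_sup_zpowers hB.1 hx, ?_, ?_⟩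
  · apply le_normalizer_of_comm_le
    exact (comm_sup_zpowers_le hx le_rfl (comm_le_left_of_le_normalizer hB.2.1) (hxQ.trans inf_le_left)).trans
      le_sup_left
  · intro A hA hAQ hN h1 h2
    have h3 := hB.2.2 A hA hAQ (le_sup_left.trans hN)
      (le_bot_iff.mp (h1 ▸ commutator_mono le_sup_left le_rfl))
      (le_bot_iff.mp (h2 ▸ commutator_mono (commutator_mono (center_le_center_sup hx) le_rfl) le_rfl))
    exact (comm_sup_zpowers_le hx inf_le_left h3 ((commutator_mono le_rfl hAQ).trans hxQ)).trans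
      (center_le_center_sup hx)

theorem centralizer_le_of_maximal [Finite P] {p : ℕ} [Fact p.Prime] (hP : IsPGroup p P) (B : Subgroup P)
    (𝒦 : Set (Subgroup P))
    (h𝒦 : 𝒦 = classTwoSubgroups P ∨ (∃ Q, 𝒦 = kLowerStarFamily Q) ∨ ∃ Q, 𝒦 = kUpperStarFamily Q)
    (hB : B ∈ 𝒦) (hmax : ∀ C ∈ 𝒦, B ≤ C → C = B) : centralizer (B : Set P) ≤ B := by
  by_contra hc
  have fin : ∀ x, x ∉ B → B ⊔ zpowers x ∈ 𝒦 → False := by
    intro x hxB hmem
    have := hmax _ hmem le_sup_left
    apply hxB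
    rw [← this]
    exact le_sup_right (a := B) (mem_zpowers x)
  rcases h𝒦 with rfl | ⟨Q, rfl⟩ | ⟨Q, rfl⟩
  · obtain ⟨x, hx, hxB, -⟩ := exists_fixed_mod_center hP (B := B) (Q := ⊥) bot_le hc
    exact fin x hxB (classTwo_sup_zpowers hB hx)
  · obtain ⟨x, hx, hxB, hxQ⟩ := exists_fixed_mod_center hP (B := B) (Q := Q) hB.2.1 hc
    exact fin x hxB (lowerStar_sup_zpowers hB hx hxQ)
  · obtain ⟨x, hx, hxB, hxQ⟩ := exists_fixed_mod_center hP (B := B) (Q := Q)
      (le_normalizer_of_comm_le (hB.2.trans inf_le_left)) hc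
    exact fin x hxB (upperStar_sup_zpowers hB hx hxQ)

lemma bot_mem_classTwo : (⊥ : Subgroup P) ∈ classTwoSubgroups P := by
  change ⁅(⊥ : Subgroup P), (⊥ : Subgroup P)⁆ ≤ centralizer (((⊥ : Subgroup P)) : Set P)
  rw [commutator_bot_left]
  exact bot_le

lemma bot_mem_upperStar (Q : Subgroup P) : (⊥ : Subgroup P) ∈ kUpperStarFamily Q := by
  refine ⟨bot_mem_classTwo, ?_⟩
  rw [commutator_bot_left]
  exact bot_le

lemma bot_mem_lowerStar (Q : Subgroup P) : (⊥ : Subgroup P) ∈ kLowerStarFamily Q := by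
  refine ⟨bot_mem_classTwo, ?_, ?_⟩
  · intro x _
    rw [mem_normalizer_iff]
    intro y
    simp
  · intro A _ _ _ _ _
    rw [commutator_bot_left]
    exact bot_le

lemma centralizer_sSup_le [Finite P] {p : ℕ} [Fact p.Prime] (hP : IsPGroup p P) (𝒦 : Set (Subgroup P))
    (h𝒦 : 𝒦 = classTwoSubgroups P ∨ (∃ Q, 𝒦 = kLowerStarFamily Q) ∨ ∃ Q, 𝒦 = kUpperStarFamily Q)
    (hne : 𝒦.Nonempty) : centralizer ((sSup 𝒦 : Subgroup P) : Set P) ≤ sSup 𝒦 := by
  obtain ⟨B, hB⟩ := Set.Finite.exists_maximal (Set.toFinite 𝒦) hne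
  have h1 := centralizer_le_of_maximal hP B 𝒦 h𝒦 hB.1 (fun C hC hBC => le_antisymm (hB.2 hC hBC) hBC)
  have h2 : B ≤ sSup 𝒦 := le_sSup hB.1
  exact ((centralizer_le h2).trans h1).trans h2

theorem centralizer_kInfLower_le [Finite P] {p : ℕ} [Fact p.Prime] (hP : IsPGroup p P) :
    centralizer (kInfLower P : Set P) ≤ kInfLower P := by
  obtain ⟨n, hn⟩ := kSeq_stable (P := P)
  rw [← (hn n le_rfl).1]
  exact centralizer_sSup_le hP _ (Or.inr (Or.inl ⟨_, rfl⟩)) ⟨_, bot_mem_lowerStar _⟩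

theorem centralizer_kInfUpper_le [Finite P] {p : ℕ} [Fact p.Prime] (hP : IsPGroup p P) :
    centralizer (kInfUpper P : Set P) ≤ kInfUpper P := by
  obtain ⟨n, hn⟩ := kSeq_stable (P := P)
  rw [← (hn (n + 1) (Nat.le_succ n)).2]
  exact centralizer_sSup_le hP _ (Or.inr (Or.inr ⟨_, rfl⟩)) ⟨_, bot_mem_upperStar _⟩

end Cfsg.Agent.H12
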