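import Mathlib
import Cfsg.Agent.H12.K6a
import Cfsg.Agent.H12.AG2
import Cfsg.Agent.H12.Sec4

set_option autoImplicit false
set_option linter.unusedSectionVars false

/-! `N/C` a `p`-group for a self-centralizing normal `p`-subgroup gives a normal `p`-complement. -/

namespace Cfsg.Agent.H12

open Cfsg Subgroup

universe u

variable {p : ℕ} [hpf : Fact p.Prime]

theorem npc_of_pprime_centralize {H : Type u} [Group H] [Finite H] (S : Sylow p H) (K : Subgroup H) [hK : K.Normal]
    (hKS : (S : Subgroup H) ⊓ centralizer (K : Set H) ≤ K)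
    (h : ∀ g : H, (orderOf g).Coprime p → g ∈ centralizer (K : Set H)) : HasNormalPComplement p H := by
  set C := Subgroup.centralizer (K : Set H) with hC
  have hidx : ¬ p ∣ ((S : Subgroup H) ⊓ C).relIndex C :=
    sylow_rel_inf_normal (X := ⊤) le_top S.2 (sylow_not_dvd_relIndex_top S) le_top (fun x _ => cj_of_normal C x)
  have hR : IsPGroup p ((S : Subgroup H) ⊓ C : Subgroup H) := S.2.to_le inf_le_left
  have hR' : IsPGroup p (((S : Subgroup H) ⊓ C).subgroupOf C) := hR.comap_subtype
  let S_C : Sylow p C := hR'.toSylow hidx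
  have hcen : (S_C : Subgroup C) ≤ Subgroup.center C := by
    intro s hs
    have hs' : (s : H) ∈ (S : Subgroup H) ⊓ C := hs
    rw [Subgroup.mem_center_iff]
    intro c
    apply Subtype.ext
    have := (Subgroup.mem_centralizer_iff.mp c.2) s (hKS hs')
    simpa using this.symm
  have hco := pResidual_coprime_of_central S_C hcen
  rw [hasNormalPComplement_iff]
  have hle : pResidual p H ≤ (pResidual p C).map C.subtype := by
    unfold pResidual
    rw [closure_le]
    intro g hg
    exact ⟨⟨g, h g hg⟩, subset_closure (by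
      change (orderOf (⟨g, h g hg⟩ : C)).Coprime p
      rw [Subgroup.orderOf_mk]; exact hg), rfl⟩
  refine Nat.Coprime.coprime_dvd_left (Subgroup.card_dvd_of_le hle) ?_
  rw [Subgroup.card_map_of_injective C.subtype_injective]
  exact hco

lemma inf_centralizer_induced_kInfLower_le {G : Type u} [Group G] [Finite G] {S : Subgroup G} (hS : IsPGroup p S) :
    S ⊓ centralizer ((inducedFunctor kInfLower S : Subgroup G) : Set G) ≤ inducedFunctor kInfLower S := by
  rintro x ⟨hxS, hxC⟩
  have h1 : (⟨x, hxS⟩ : S) ∈ centralizer (kInfLower S : Set S) := by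
    rw [mem_centralizer_iff]
    intro y hy
    apply Subtype.ext
    exact mem_centralizer_iff.mp hxC y ⟨y, hy, rfl⟩
  exact ⟨⟨x, hxS⟩, centralizer_kInfLower_le hS h1, rfl⟩

theorem npc_normalizer_of_pprime_centralize {G : Type u} [Group G] [Finite G] (S : Sylow p G)
    (h : ∀ g ∈ normalizer ((inducedFunctor kInfLower (S : Subgroup G) : Subgroup G) : Set G), (orderOf g).Coprime p →
      g ∈ centralizer ((inducedFunctor kInfLower (S : Subgroup G) : Subgroup G) : Set G)) :
    HasNormalPComplement p ↥(normalizer ((inducedFunctor kInfLower (S : Subgroup G) : Subgroup G) : Set G)) := by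
  set K := inducedFunctor kInfLower (S : Subgroup G) with hK
  have hSN : (S : Subgroup G) ≤ normalizer (K : Set G) :=
    Subgroup.le_normalizer.trans (normalizer_le_normalizer_functor
      (isConjugacyFunctor_induced isCharPFunctor_kInfLower) S.2)
  have hKn : (K.subgroupOf (normalizer (K : Set G))).Normal :=
    (Subgroup.normal_subgroupOf_iff_le_normalizer le_normalizer).mpr le_rfl
  refine npc_of_pprime_centralize (S.subtype hSN) (K.subgroupOf (normalizer (K : Set G))) ?_ ?_
  · rintro x ⟨hxS, hxC⟩
    have hxS' : (x : G) ∈ (S : Subgroup G) := hxS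
    rw [mem_subgroupOf]
    apply inf_centralizer_induced_kInfLower_le S.2
    refine ⟨hxS', ?_⟩
    change (x : G) ∈ centralizer (K : Set G)
    rw [mem_centralizer_iff]
    intro y hy
    have := mem_centralizer_iff.mp hxC ⟨y, le_normalizer hy⟩ (by
      change _ ∈ K.subgroupOf _
      rw [mem_subgroupOf]; exact hy)
    exact congrArg Subtype.val this
  · intro g hg
    have h1 := h g.1 g.2 (by rwa [Subgroup.orderOf_coe])
    rw [mem_centralizer_iff]
    intro y hy
    apply Subtype.ext
    exact mem_centralizer_iff.mp h1 y.1 (mem_subgroupOf.mp hy)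

end Cfsg.Agent.H12
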