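import Mathlib
import Cfsg.Agent.H12.K4
import Cfsg.Agent.H12.WC4

set_option autoImplicit false

namespace Cfsg.Agent.H12

open Cfsg
open scoped commutatorElement

universe u

variable {G : Type u} [Group G] [Finite G] {p : ℕ} [Fact p.Prime]

/-- the local hypothesis of the weak closure theorems, for the K-infinity functors -/
theorem kInf_local (W : ∀ (Q : Type u) [Group Q], Subgroup Q) (hW : IsCharPFunctor.{u} p W)
    (hq : ∀ (H : Type u) [Group H] [Finite H] (S : Sylow p H), ¬ (inducedFunctor W (S : Subgroup H)).Normal →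
      ∃ g ∈ (S : Subgroup H), g ∉ pCore p H ∧
        ⁅⁅pCore p H ⊓ Subgroup.centralizer ((pCore p H : Subgroup H) : Set H), Subgroup.zpowers g⁆,
          Subgroup.zpowers g⁆ = ⊥)
    (H T : Subgroup G) (hTH : T ≤ H) (hT : IsPGroup p T) (hidx : ¬ p ∣ T.relIndex H)
    (hn : ¬ H ≤ Subgroup.normalizer ((inducedFunctor W T : Subgroup G) : Set G)) :
    ∃ g : G, g ∈ T ∧ g ∉ pCoreOf p H ∧
      ⁅⁅pCoreOf p H ⊓ Subgroup.centralizer ((pCoreOf p H : Subgroup G) : Set G), Subgroup.zpowers g⁆,
        Subgroup.zpowers g⁆ = ⊥ := by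
  have hinj := H.subtype_injective
  have hT' : IsPGroup p (T.subgroupOf H) := hT.comap_of_injective _ hinj
  let S : Sylow p H := hT'.toSylow hidx
  have hSc : (S : Subgroup H) = T.subgroupOf H := rfl
  have eT : (T.subgroupOf H).map H.subtype = T := Subgroup.map_subgroupOf_eq_of_le hTH
  have e1 : (inducedFunctor W (S : Subgroup H)).map H.subtype = inducedFunctor W T := by
    rw [inducedFunctor_map hW H.subtype _ S.2 hinj.injOn, hSc, eT]
  have hnn : ¬ (inducedFunctor W (S : Subgroup H)).Normal := by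
    intro h
    apply hn
    have h2 := map_normalizer_of_injective H.subtype hinj (inducedFunctor W (S : Subgroup H))
    rw [Subgroup.normalizer_eq_top_iff.mpr h, e1, Subgroup.range_subtype, ← MonoidHom.range_eq_map,
      Subgroup.range_subtype] at h2
    exact inf_eq_left.mp h2.symm
  obtain ⟨g, hgS, hgQ, hq2⟩ := hq H S hnn
  refine ⟨(g : G), Subgroup.mem_subgroupOf.mp hgS, ?_, ?_⟩
  · rintro ⟨y, hy, hyg⟩
    have : y = g := hinj hyg
    exact hgQ (this ▸ hy)
  · have := congrArg (Subgroup.map H.subtype) hq2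
    rw [Subgroup.map_commutator, Subgroup.map_commutator, map_inf_centralizer _ hinj, MonoidHom.map_zpowers,
      Subgroup.map_bot] at this
    exact this

theorem kInfLower_local (H T : Subgroup G) (hTH : T ≤ H) (hT : IsPGroup p T) (hidx : ¬ p ∣ T.relIndex H)
    (hn : ¬ H ≤ Subgroup.normalizer ((inducedFunctor kInfLower T : Subgroup G) : Set G)) :
    ∃ g : G, g ∈ T ∧ g ∉ pCoreOf p H ∧
      ⁅⁅pCoreOf p H ⊓ Subgroup.centralizer ((pCoreOf p H : Subgroup G) : Set G), Subgroup.zpowers g⁆,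
        Subgroup.zpowers g⁆ = ⊥ := by
  apply kInf_local kInfLower isCharPFunctor_kInfLower _ H T hTH hT hidx hn
  intro H' _ _ S hS
  obtain ⟨g, h1, h2, -, h3⟩ := exists_quartic_of_not_normal S (Or.inl hS)
  exact ⟨g, h1, h2, h3⟩

/-- `Z(P) ≤ K_∞(P)` for subgroups -/
lemma center_le_inducedFunctor_kInfLower (P : Subgroup G) :
    P ⊓ Subgroup.centralizer (P : Set G) ≤ inducedFunctor kInfLower P := by
  intro z hz
  obtain ⟨hz1, hz2⟩ := Subgroup.mem_inf.mp hz
  refine ⟨⟨z, hz1⟩, center_le_kInfLower ?_, rfl⟩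
  rw [Subgroup.mem_center_iff]
  intro y
  apply Subtype.ext
  exact (Subgroup.mem_centralizer_iff.mp hz2) y y.2

end Cfsg.Agent.H12
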