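import Mathlib

set_option autoImplicit false
set_option linter.unusedSimpArgs false
set_option linter.unusedSectionVars false

/-! A module for a cyclic group of order `p` in characteristic `p` with nonzero norm map has dimension at least `p`. -/

namespace Cfsg.Agent.H12.Wr

open Polynomial

variable {p : ℕ} [hpf : Fact p.Prime]

lemma geom_eq_pow : (∑ i ∈ Finset.range p, (X : (ZMod p)[X]) ^ i) = (X - 1) ^ (p - 1) := by
  have h := cyclotomic_mul_prime_pow_eq (ZMod p) (p := p) (m := 1) (hpf.out.one_lt.ne' ∘ Nat.dvd_one.mp) (k := 1)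
    one_pos
  rw [pow_one, mul_one, cyclotomic_prime, cyclotomic_one] at h
  simpa using h

lemma sub_one_pow_p : ((X : (ZMod p)[X]) - 1) ^ p = X ^ p - 1 := by
  rw [sub_pow_char_of_commute p (Commute.one_right _), one_pow]

theorem card_ge_of_norm {V : Type*} [AddCommGroup V] [Module (ZMod p) V] [Finite V]
    (τ : Module.End (ZMod p) V) (hτ : τ ^ p = 1) (x : V) (hx : (∑ i ∈ Finset.range p, τ ^ i) x ≠ 0) :
    p ^ p ≤ Nat.card V := by
  have h1 : (τ - 1) ^ p = 0 := by
    have := congrArg (aeval τ) (sub_one_pow_p (p := p))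
    simpa [hτ] using this
  have h2 : (∑ i ∈ Finset.range p, τ ^ i) = (τ - 1) ^ (p - 1) := by
    have := congrArg (aeval τ) (geom_eq_pow (p := p))
    simpa using this
  rw [h2] at hx
  have hfd : FiniteDimensional (ZMod p) V := Module.Finite.of_finite
  have hle : p ≤ Module.finrank (ZMod p) V := by
    by_contra hlt
    rw [not_le] at hlt
    have e1 := Module.End.ker_pow_eq_ker_pow_finrank_of_le (f := τ - 1) (m := p - 1) (by omega)
    have e2 := Module.End.ker_pow_eq_ker_pow_finrank_of_le (f := τ - 1) (m := p) (by omega)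
    apply hx
    have : x ∈ LinearMap.ker ((τ - 1) ^ (p - 1)) := by
      rw [e1, ← e2, h1]
      simp
    exact this
  have hc : Nat.card V = p ^ Module.finrank (ZMod p) V := by
    have := Fintype.ofFinite V
    rw [Nat.card_eq_fintype_card, Module.card_eq_pow_finrank (K := ZMod p), ZMod.card]
  rw [hc]
  exact Nat.pow_le_pow_right hpf.out.pos hle

theorem card_ge_of_norm_rel {V : Type*} [AddCommGroup V] [Module (ZMod p) V] [Finite V]
    (τ : Module.End (ZMod p) V) (hτ : τ ^ p = 1) (K : Submodule (ZMod p) V) (hK : K ≤ K.comap τ)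
    (x : V) (hx : (∑ i ∈ Finset.range p, τ ^ i) x ∉ K) :
    p ^ p * Nat.card K ≤ Nat.card V := by
  have h1 : (K.mapQ K τ hK) ^ p = 1 := by
    rw [← Submodule.mapQ_pow]
    simp only [hτ]
    ext v
    simp
  have h2 : (∑ i ∈ Finset.range p, (K.mapQ K τ hK) ^ i) (Submodule.Quotient.mk x) ≠ 0 := by
    intro h
    apply hx
    rw [← Submodule.Quotient.mk_eq_zero, ← h]
    simp only [LinearMap.sum_apply]
    rw [← Submodule.mkQ_apply, map_sum]
    refine Finset.sum_congr rfl fun i _ => ?_
    rw [← Submodule.mapQ_pow]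
    rfl
  have hfin : Finite (V ⧸ K) := Quotient.finite _
  have h3 := card_ge_of_norm (K.mapQ K τ hK) h1 _ h2
  rw [Submodule.card_eq_card_quotient_mul_card K, mul_comm]
  exact Nat.mul_le_mul_left _ h3

end Cfsg.Agent.H12.Wr
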