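import Mathlib
import Cfsg.Prelude.Def_Transfer
import Cfsg.Agent.H12.Wr1

set_option autoImplicit false
set_option linter.unusedSimpArgs false
set_option linter.unusedSectionVars false

/-! A `p`-group with an elementary abelian normal subgroup of index `p` with nontrivial norm maps onto `Z_p ≀ Z_p`. -/

namespace Cfsg.Agent.H12.Wr

variable {p : ℕ} [hpf : Fact p.Prime] {P : Type*} [Group P]

lemma map_prod_range {M : Type*} [CommGroup M] (ι : M →* P) (a : ℕ → M) (n : ℕ) :
    ι (∏ i ∈ Finset.range n, a i) = ((List.range n).map (fun i => ι (a i))).prod := by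
  induction n with
  | zero => simp
  | succ n ih =>
    rw [Finset.prod_range_succ, map_mul, ih, List.range_succ, List.map_append, List.prod_append]
    simp

theorem core_bound_aux [Finite P] {M : Type*} [CommGroup M] [Module (ZMod p) (Additive M)]
    (ι : M →* P) (hι : Function.Injective ι) (hidx : ι.range.index = p)
    (y : P) (σ : M →* M) (hσ : ∀ a, ι (σ a) = y⁻¹ * ι a * y) (hyp : y ^ p ∈ ι.range) (x : M)
    (hprod : ((List.range p).map (fun i => (y ^ i)⁻¹ * ι x * y ^ i)).prod ≠ 1) :
    ∃ B : Subgroup P, B.index = p ^ 2 ∧ p ^ (p + 1) * Nat.card B.normalCore ≤ Nat.card P := by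
  have hMfin : Finite M := Finite.of_injective ι hι
  -- the operator
  let τ : Module.End (ZMod p) (Additive M) := AddMonoidHom.toZModLinearMap p (MonoidHom.toAdditive σ)
  have hτ1 : ∀ a : M, τ (Additive.ofMul a) = Additive.ofMul (σ a) := fun a => rfl
  have hτi : ∀ (i : ℕ) (a : M), (τ ^ i) (Additive.ofMul a) = Additive.ofMul (σ^[i] a) := by
    intro i
    induction i with
    | zero => intro a; simp
    | succ i ih =>
      intro a
      rw [pow_succ, Module.End.mul_apply, hτ1, ih, Function.iterate_succ_apply]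
  have hσi : ∀ (i : ℕ) (a : M), ι (σ^[i] a) = (y ^ i)⁻¹ * ι a * y ^ i := by
    intro i
    induction i with
    | zero => intro a; simp
    | succ i ih =>
      intro a
      rw [Function.iterate_succ_apply, ih, hσ, pow_succ']
      group
  have hτp : τ ^ p = 1 := by
    ext v
    obtain ⟨a, rfl⟩ := Additive.ofMul.surjective v
    rw [hτi, Module.End.one_apply]
    have key : σ^[p] a = a := by
      apply hι
      rw [hσi]
      obtain ⟨b, hb⟩ := hyp
      rw [← hb, ← map_inv, ← map_mul, ← map_mul]
      congr 1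
      rw [mul_comm b⁻¹, mul_assoc, inv_mul_cancel, mul_one]
    rw [key]
  set v0 : Additive M := (∑ i ∈ Finset.range p, τ ^ i) (Additive.ofMul x) with hv0
  have hv0' : v0 = Additive.ofMul (∏ i ∈ Finset.range p, σ^[i] x) := by
    rw [hv0, LinearMap.sum_apply, ofMul_prod]
    exact Finset.sum_congr rfl fun i _ => hτi i x
  have hιv0 : ι (Additive.toMul v0) = ((List.range p).map (fun i => (y ^ i)⁻¹ * ι x * y ^ i)).prod := by
    rw [hv0', toMul_ofMul, map_prod_range]
    congr 1
    apply List.map_congr_left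
    intro i _
    exact hσi i x
  have hv0ne : v0 ≠ 0 := by
    intro h
    apply hprod
    rw [← hιv0, h]
    simp
  -- the functional
  obtain ⟨f, hf⟩ : ∃ f : Module.Dual (ZMod p) (Additive M), f v0 ≠ 0 := by
    by_contra hcon
    push Not at hcon
    exact hv0ne ((Module.forall_dual_apply_eq_zero_iff (ZMod p) v0).mp hcon)
  let g : M →* Multiplicative (ZMod p) := AddMonoidHom.toMultiplicativeRight f.toAddMonoidHom
  have hg : ∀ a : M, g a = Multiplicative.ofAdd (f (Additive.ofMul a)) := fun a => rfl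
  have hgs : Function.Surjective g := by
    intro c
    refine ⟨Additive.toMul ((Multiplicative.toAdd c * (f v0)⁻¹) • v0), ?_⟩
    rw [hg, ofMul_toMul, map_smul, smul_eq_mul, mul_assoc, inv_mul_cancel₀ hf, mul_one]
    rfl
  have hgi : g.ker.index = p := by
    rw [Subgroup.index_ker, MonoidHom.range_eq_top.mpr hgs, Subgroup.card_top, Nat.card_congr Multiplicative.toAdd,
      Nat.card_zmod]
  refine ⟨g.ker.map ι, ?_, ?_⟩
  · rw [Subgroup.index_map, (MonoidHom.ker_eq_bot_iff ι).mpr hι, sup_bot_eq, hgi, hidx, sq]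
  set K := (g.ker.map ι).normalCore with hKdef
  have hKle : K ≤ g.ker.map ι := Subgroup.normalCore_le _
  have hKn : K.Normal := Subgroup.normalCore_normal _
  let K' : Submodule (ZMod p) (Additive M) := AddSubgroup.toZModSubmodule p (Subgroup.toAddSubgroup (K.comap ι))
  have hK'mem : ∀ v : Additive M, v ∈ K' ↔ ι (Additive.toMul v) ∈ K := fun v => Iff.rfl
  have hK'inv : K' ≤ K'.comap τ := by
    intro v hv
    obtain ⟨a, rfl⟩ := Additive.ofMul.surjective v
    rw [Submodule.mem_comap, hτ1, hK'mem, toMul_ofMul, hσ]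
    rw [hK'mem, toMul_ofMul] at hv
    have := hKn.conj_mem _ hv y⁻¹
    simpa using this
  have hv0K : v0 ∉ K' := by
    intro h
    rw [hK'mem] at h
    obtain ⟨a, ha, hae⟩ := hKle h
    have h1 : a = Additive.toMul v0 := hι hae
    have ha' : g a = 1 := ha
    rw [hg, h1, ofMul_toMul] at ha'
    exact hf (Multiplicative.ofAdd.injective ha')
  have hmain := card_ge_of_norm_rel τ hτp K' hK'inv (Additive.ofMul x) hv0K
  have hcK : Nat.card K' = Nat.card K := by
    have h1 : (K.comap ι).map ι = K := by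
      rw [Subgroup.map_comap_eq, inf_eq_right]
      exact hKle.trans (Subgroup.map_le_range _ _)
    have h2 : Nat.card ((K.comap ι).map ι) = Nat.card (K.comap ι) := Subgroup.card_map_of_injective hι
    rw [← h1, h2]
    rfl
  have hcM : Nat.card (Additive M) = Nat.card M := rfl
  have hcP : Nat.card P = Nat.card M * p := by
    rw [← Subgroup.card_mul_index ι.range, hidx, Nat.card_congr (MonoidHom.ofInjective hι).toEquiv]
  rw [hcK, hcM] at hmain
  rw [hcP, pow_succ]
  calc p ^ p * p * Nat.card K = (p ^ p * Nat.card K) * p := by ring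
    _ ≤ Nat.card M * p := Nat.mul_le_mul_right _ hmain

theorem core_bound [Finite P] (A : Subgroup P) [hAn : A.Normal] (hA : Cfsg.IsElementaryAbelian p A) (hidx : A.index = p)
    (x y : P) (hx : x ∈ A)
    (hprod : ((List.range p).map (fun i => (y ^ i)⁻¹ * x * y ^ i)).prod ≠ 1) :
    ∃ B : Subgroup P, B.index = p ^ 2 ∧ p ^ (p + 1) * Nat.card B.normalCore ≤ Nat.card P := by
  let i1 : CommGroup A := { (inferInstance : Group A) with mul_comm := hA.1.is_comm.comm }
  let i2 : Module (ZMod p) (Additive A) := AddCommGroup.zmodModule (n := p) (fun v => by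
    have h1 : (Additive.toMul v) ^ p = 1 := Subtype.ext (hA.2 _ (Additive.toMul v).2)
    have h2 : Additive.ofMul ((Additive.toMul v) ^ p) = 0 := by rw [h1]; rfl
    simpa using h2)
  refine @core_bound_aux p _ P _ _ A i1 i2 A.subtype A.subtype_injective (by rw [A.range_subtype]; exact hidx) y
    (MulAut.conjNormal y⁻¹ : MulAut A).toMonoidHom (fun a => by
      change ((MulAut.conjNormal y⁻¹ a : A) : P) = _
      rw [MulAut.conjNormal_apply, inv_inv]; rfl) (by
      rw [A.range_subtype]; exact hidx ▸ A.pow_index_mem y) ⟨x, hx⟩ hprod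

lemma factorization_perm : (Nat.card (Equiv.Perm (Fin (p ^ 2)))).factorization p = p + 1 := by
  rw [Nat.card_perm, Nat.card_fin, Nat.factorization_def _ hpf.out, sq, padicValNat_factorial_mul]
  have := padicValNat_factorial_mul (p := p) 1
  rw [mul_one] at this
  rw [this]
  simp
  ring

theorem exists_surj [Finite P] (hP : IsPGroup p P) (A : Subgroup P) [hAn : A.Normal]
    (hA : Cfsg.IsElementaryAbelian p A) (hidx : A.index = p) (x y : P) (hx : x ∈ A)
    (hprod : ((List.range p).map (fun i => (y ^ i)⁻¹ * x * y ^ i)).prod ≠ 1) :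
    ∃ (Q : Sylow p (Equiv.Perm (Fin (p ^ 2)))) (f : P →* ↥(Q : Subgroup (Equiv.Perm (Fin (p ^ 2))))),
      Function.Surjective f := by
  obtain ⟨B, hBi, hBc⟩ := core_bound A hA hidx x y hx hprod
  have e : P ⧸ B ≃ Fin (p ^ 2) := Finite.equivFinOfCardEq (by rw [← Subgroup.index_eq_card, hBi])
  let φ : P →* Equiv.Perm (Fin (p ^ 2)) := (Equiv.permCongrHom e).toMonoidHom.comp (MulAction.toPermHom P (P ⧸ B))
  have hker : φ.ker = B.normalCore := by
    rw [Subgroup.normalCore_eq_ker]
    ext z
    simp only [MonoidHom.mem_ker, φ, MonoidHom.comp_apply]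
    exact (Equiv.permCongrHom e).map_eq_one_iff
  have hRp : IsPGroup p φ.range := by
    rw [MonoidHom.range_eq_map]
    exact (IsPGroup.to_subgroup hP ⊤).map φ
  obtain ⟨Q, hQ⟩ := hRp.exists_le_sylow
  have hcQ : Nat.card Q = p ^ (p + 1) := by
    rw [Sylow.card_eq_multiplicity, factorization_perm]
  have hcR : p ^ (p + 1) ≤ Nat.card φ.range := by
    rw [← Subgroup.index_ker, hker]
    have h1 := Subgroup.card_mul_index B.normalCore
    rw [← h1, mul_comm] at hBc
    exact Nat.le_of_mul_le_mul_left hBc Nat.card_pos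
  have hRQ : φ.range = Q := Subgroup.eq_of_le_of_card_ge hQ (by rw [hcQ]; exact hcR)
  refine ⟨Q, φ.codRestrict Q (fun z => hQ ⟨z, rfl⟩), ?_⟩
  rintro ⟨w, hw⟩
  rw [← hRQ] at hw
  obtain ⟨z, rfl⟩ := hw
  exact ⟨z, rfl⟩

end Cfsg.Agent.H12.Wr
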