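import Mathlib
import Cfsg.Agent.H12.ZLoc
import Cfsg.Agent.H4.SF4
import Cfsg.Agent.S2004
import Cfsg.Agent.H17.ZJClosed
import Cfsg.Agent.Lib.Helper13.PStab4
import Cfsg.Agent.Lib.Helper13.S4Sec

set_option autoImplicit false
set_option linter.unusedSectionVars false

/-! `N(ZJ(S))` controls strong fusion when the normalizers of the `Z(S) ≤ P ≤ S` are `SL₂(p)`-free. -/

namespace Cfsg.Agent.H12

open Cfsg Cfsg.Agent.Lib.Helper13 Cfsg.Agent.H4.SF

universe u

lemma exists_section_of_involves {G : Type*} [Group G] {X : Type*} [Group X] {N : Subgroup G} (h : Involves X ↥N) :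
    ∃ (H K : Subgroup G) (_ : (K.subgroupOf H).Normal), H ≤ N ∧ Nonempty ((H ⧸ K.subgroupOf H) ≃* X) := by
  obtain ⟨K', f, hf⟩ := involves_iff.mp h
  let e : K' ≃* K'.map N.subtype := K'.equivMapOfInjective N.subtype N.subtype_injective
  let f' : K'.map N.subtype →* X := f.comp e.symm.toMonoidHom
  have hf' : Function.Surjective f' := hf.comp e.symm.surjective
  have e1 : (f'.ker.map (K'.map N.subtype).subtype).subgroupOf (K'.map N.subtype) = f'.ker := by
    ext x
    rw [Subgroup.mem_subgroupOf]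
    constructor
    · rintro ⟨y, hy, hyx⟩
      rwa [← Subtype.ext hyx]
    · intro hx
      exact ⟨x, hx, rfl⟩
  have hn : ((f'.ker.map (K'.map N.subtype).subtype).subgroupOf (K'.map N.subtype)).Normal := by
    rw [e1]; infer_instance
  refine ⟨K'.map N.subtype, f'.ker.map (K'.map N.subtype).subtype, hn,
    Subgroup.map_subtype_le _, ⟨?_⟩⟩
  exact (QuotientGroup.quotientMulEquivOfEq e1).trans (QuotientGroup.quotientKerEquivOfSurjective f' hf')

variable {G : Type u} [Group G] [Finite G] {p : ℕ} [Fact p.Prime]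

lemma center_le_zAb (T : Subgroup G) : T ⊓ Subgroup.centralizer (T : Set G) ≤ zAb 0 T := by
  rintro x ⟨hxT, hxC⟩
  apply (Subgroup.mem_sInf).mpr
  intro A hA
  exact mem_of_mem_maxAb hA hxT (Subgroup.centralizer_le hA.1 hxC) (pow_zero x)

/-- all sections stable: the functor `ZJ` controls strong fusion -/
lemma sfc_WZ_of_stable (hp : p ≠ 2)
    (hst : ∀ (K R : Subgroup G) [hR : (R.subgroupOf K).Normal], IsNormalizerPStable p (↥K ⧸ R.subgroupOf K)) :
    SFc p {WZ.{u} 0} G := by
  have h𝓦 : ∀ W ∈ ({WZ.{u} 0} : Set (∀ (Q : Type u) [Group Q], Subgroup Q)), IsCharPFunctor.{u} p W := by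
    intro W hW
    rw [Set.mem_singleton_iff] at hW
    rw [hW]; exact isCharPFunctor_WZ (Or.inl rfl)
  refine sf_of_isSec h𝓦 ?_ G (IsSec.refl G)
  intro K R hR hc
  obtain ⟨T⟩ : Nonempty (Sylow p (↥K ⧸ R.subgroupOf K)) := inferInstance
  refine sfc_of_normal T ?_
  rw [inducedFunctor_WZ]
  exact zAb_normal hp (Or.inl rfl) hc (fun P _ hP =>
    Cfsg.Agent.H17.isPStableOn_of_normalizerPStable (hst K R) P hP) T

theorem zj_controls_of_local_free (hp : p ≠ 2) (S : Sylow p G)
    (hfree : ∀ P : Subgroup G, (S : Subgroup G) ⊓ Subgroup.centralizer ((S : Subgroup G) : Set G) ≤ P → P ≤ S →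
      ¬ ∃ (H K : Subgroup G) (_ : (K.subgroupOf H).Normal), H ≤ Subgroup.normalizer (P : Set G) ∧
        Nonempty ((H ⧸ K.subgroupOf H) ≃* Matrix.SpecialLinearGroup (Fin 2) (ZMod p)))
    (A : Subgroup G) (g : G) (hA : A ≤ S) (hAg : cj A g ≤ S) :
    ∃ n ∈ Subgroup.normalizer (zAb 0 (S : Subgroup G) : Set G), ∀ a ∈ A, n⁻¹ * a * n = g⁻¹ * a * g := by
  have h𝓦 : ∀ W ∈ ({WZ.{u} 0} : Set (∀ (Q : Type u) [Group Q], Subgroup Q)), IsCharPFunctor.{u} p W := by
    intro W hW
    rw [Set.mem_singleton_iff] at hW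
    rw [hW]; exact isCharPFunctor_WZ (Or.inl rfl)
  have key := zlocal_global S (indFam {WZ.{u} 0} G) (indFam_conj h𝓦) (by
      rintro _ ⟨W, hW, rfl⟩ T _
      rw [Set.mem_singleton_iff] at hW
      rw [hW]
      change _ ≤ inducedFunctor (WZ 0) T
      rw [inducedFunctor_WZ]
      exact center_le_zAb T)
    ((Subgroup.normalizer (zAb 0 (S : Subgroup G) : Set G) : Subgroup G) : Set G)
    (fun x hx => inv_mem hx)
    (fun g hg => normalizer_le_normalizer_zAb _ hg)
    (by
      rintro _ ⟨W, hW, rfl⟩ g hg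
      rw [Set.mem_singleton_iff] at hW
      rw [hW] at hg
      change g ∈ Subgroup.normalizer ((inducedFunctor (WZ 0) (S : Subgroup G) : Subgroup G) : Set G) at hg
      rw [inducedFunctor_WZ] at hg
      exact hg)
    (by
      intro U hZU hUS hfn B y hB hy hBy
      have hst := Cfsg.Agent.S2004.result (G := ↥(Subgroup.normalizer (U : Set G))) hp (fun P' _ _ hinv =>
        hfree U hZU hUS (exists_section_of_involves (Involves.of_subgroup hinv)))
      have h1 := sf_subgroup h𝓦 (Subgroup.normalizer (U : Set G)) (sfc_WZ_of_stable hp hst)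
      have h2 := family_at (indFam_conj h𝓦) h1 (T := (S : Subgroup G) ⊓ Subgroup.normalizer (U : Set G))
        inf_le_right (S.2.to_le inf_le_left) hfn B y hB hy hBy
      refine WC.mono ?_ h2
      rintro x ⟨W, hW, hx⟩
      exact Or.inr ⟨W, hW, hx.2⟩)
    A g hA hAg
  obtain ⟨g', hg1, hg2⟩ := key
  exact ⟨g', hg1.mem_of_subgroup, hg2⟩

end Cfsg.Agent.H12
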