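import Mathlib
import Cfsg.Agent.H12.ZLoc

set_option autoImplicit false
set_option linter.unusedSectionVars false

/-! Chains as lists; control of strong fusion by a conjugacy functor together with a central functor. -/

namespace Cfsg.Agent.H12

open Cfsg

variable {G : Type*} [Group G]

lemma WChain.ofList {X : Set G} {S : Subgroup G} : ∀ (l : List G) (A : Subgroup G), (∀ x ∈ l, x ∈ X) →
    (∀ k ≤ l.length, cj A (l.take k).prod ≤ S) → WChain X S A l.prod := by
  intro l
  induction l with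
  | nil => intro A _ _; simpa using WChain.nil A
  | cons x l ih =>
    intro A hX hS
    rw [List.prod_cons]
    refine WChain.cons (hX x (List.mem_cons_self)) ?_ (ih (cj A x) (fun y hy => hX y (List.mem_cons_of_mem x hy)) ?_)
    · have := hS 1 (by simp)
      simpa using this
    · intro k hk
      have := hS (k + 1) (by simpa using hk)
      rw [List.take_succ_cons, List.prod_cons, ← cj_mul] at this
      exact this

lemma WChain.toList {X : Set G} {S A : Subgroup G} {g : G} (h : WChain X S A g) : A ≤ S →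
    ∃ l : List G, (∀ x ∈ l, x ∈ X) ∧ l.prod = g ∧ ∀ k ≤ l.length, cj A (l.take k).prod ≤ S := by
  induction h with
  | nil T =>
    intro hT
    exact ⟨[], by simp, by simp, fun k _ => by simpa using hT⟩
  | @cons T x g hx hT _ ih =>
    intro hTS
    obtain ⟨l, h1, h2, h3⟩ := ih hT
    refine ⟨x :: l, ?_, by rw [List.prod_cons, h2], ?_⟩
    · intro y hy
      rcases List.mem_cons.mp hy with rfl | hy
      · exact hx
      · exact h1 y hy
    · intro k hk
      cases k with
      | zero => simpa using hTS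
      | succ k =>
        rw [List.take_succ_cons, List.prod_cons, ← cj_mul]
        exact h3 k (by simpa using hk)

variable [Finite G] {p : ℕ} [Fact p.Prime]

/-- the step set for the pair `(W, V)` at `T` -/
def wvSet (W V : Subgroup G → Subgroup G) (T : Subgroup G) : Set G :=
  {x | x ∈ Subgroup.normalizer ((W T : Subgroup G) : Set G) ∨ x ∈ Subgroup.centralizer ((V T : Subgroup G) : Set G)}

theorem wv_global (hdiv : p ∣ Nat.card G) (P : Sylow p G) (W V : Subgroup G → Subgroup G)
    (hW : IsConjugacyFunctor p W) (hV : IsConjugacyFunctor p V)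
    (hWZ : ∀ H : Subgroup G, IsPGroup p ↥H → H ⊓ Subgroup.centralizer ((H : Subgroup G) : Set G) ≤ W H)
    (hVmono : ∀ H K : Subgroup G, IsPGroup p ↥H → IsPGroup p ↥K → H ≠ ⊥ → K ≠ ⊥ →
      H ⊓ Subgroup.centralizer ((H : Subgroup G) : Set G) ≤ K ⊓ Subgroup.centralizer ((K : Subgroup G) : Set G) →
      V H ≤ V K)
    (hloc : ∀ H : Subgroup G, (P : Subgroup G) ⊓ Subgroup.centralizer ((P : Subgroup G) : Set G) ≤ H →
      H ≤ (P : Subgroup G) → ∃ Q : Subgroup G, Q ≤ Subgroup.normalizer (H : Set G) ∧ IsPGroup p ↥Q ∧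
        ¬ p ∣ Q.relIndex (Subgroup.normalizer (H : Set G)) ∧
        ∀ (B : Subgroup G) (a : G), B ≤ Q → a ∈ Subgroup.normalizer (H : Set G) → cj B a ≤ Q →
          WC (wvSet W V Q) Q B a) :
    ∀ (A : Subgroup G) (g : G), A ≤ P → cj A g ≤ P → WC (wvSet W V P) P A g := by
  have hPne : (P : Subgroup G) ≠ ⊥ := by
    intro hb
    have h1 := P.not_dvd_index
    rw [hb, Subgroup.index_bot] at h1
    exact h1 hdiv
  refine zlocal_global P {W} ?_ ?_ (wvSet W V P) ?_ ?_ ?_ ?_
  · intro W' hW'
    rw [Set.mem_singleton_iff] at hW'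
    rw [hW']; exact hW
  · intro W' hW' T hT
    rw [Set.mem_singleton_iff] at hW'
    rw [hW']; exact hWZ T hT
  · rintro x (hx | hx)
    · exact Or.inl (inv_mem hx)
    · exact Or.inr (inv_mem hx)
  · intro g hg
    exact Or.inl (normalizer_le_normalizer_functor hW P.2 hg)
  · intro W' hW' g hg
    rw [Set.mem_singleton_iff] at hW'
    rw [hW'] at hg
    exact Or.inl hg
  · intro U hZU hUP hfn B y hB hy hBy
    set S₁ := (P : Subgroup G) ⊓ Subgroup.normalizer (U : Set G) with hS₁
    have hS₁p : IsPGroup p S₁ := P.2.to_le inf_le_left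
    obtain ⟨Q, hQN, hQp, hQidx, hQ⟩ := hloc U hZU hUP
    obtain ⟨v, hv, hvQ⟩ := exists_cj_eq_of_sylow_rel (T := S₁) inf_le_right hS₁p hfn hQN hQp hQidx
    have e1 : cj (cj B v) (v⁻¹ * y * v) = cj (cj B y) v := by
      rw [cj_mul, cj_mul]; congr 1; group
    obtain ⟨g', hg1, hg2⟩ := hQ (cj B v) (v⁻¹ * y * v) (by rw [← hvQ]; exact cj_mono hB v)
      (mul_mem (mul_mem (inv_mem hv) hy) hv) (by rw [e1, ← hvQ]; exact cj_mono hBy v)
    have hS₁ne : S₁ ≠ ⊥ := by
      intro hb
      have hU : U = ⊥ := by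
        rw [eq_bot_iff, ← hb]
        exact le_inf hUP Subgroup.le_normalizer
      apply hPne
      rw [eq_bot_iff, ← hb, hS₁, hU]
      refine le_inf le_rfl ?_
      intro x _
      rw [← cj_eq_self_iff]
      exact cj_eq_of_le (by rw [cj_le_iff]; exact bot_le)
    have hVle : V P ≤ V S₁ := by
      refine hVmono P S₁ P.2 hS₁p hPne hS₁ne ?_
      refine le_inf ((hZU.trans (le_inf hUP Subgroup.le_normalizer))) ?_
      exact inf_le_right.trans (Subgroup.centralizer_le inf_le_left)
    have hch := hg1.conj (X' := {x | x ∈ wvSet W V P ∨ ∃ W' ∈ ({W} : Set (Subgroup G → Subgroup G)),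
        x ∈ Subgroup.normalizer ((W' S₁ : Subgroup G) : Set G)}) v⁻¹ (by
      rintro x (hx | hx)
      · right
        refine ⟨W, rfl, ?_⟩
        rw [← hvQ, functor_cj hW hS₁p, normalizer_cj] at hx
        simpa using mem_cj.mp hx
      · left
        right
        rw [← hvQ, functor_cj hV hS₁p, centralizer_cj] at hx
        have := mem_cj.mp hx
        exact Subgroup.centralizer_le hVle (by simpa using this))
    rw [← hvQ, cj_cj_inv, cj_cj_inv] at hch
    refine ⟨_, hch, ?_⟩
    intro a ha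
    have h1 := hg2 (v⁻¹ * a * v) (conj_mem_cj ha)
    calc (v⁻¹⁻¹ * g' * v⁻¹)⁻¹ * a * (v⁻¹⁻¹ * g' * v⁻¹)
        = v * (g'⁻¹ * (v⁻¹ * a * v) * g') * v⁻¹ := by group
      _ = v * ((v⁻¹ * y * v)⁻¹ * (v⁻¹ * a * v) * (v⁻¹ * y * v)) * v⁻¹ := by rw [h1]
      _ = y⁻¹ * a * y := by group

end Cfsg.Agent.H12
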