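import Mathlib
import Cfsg.Agent.H12.ZLoc
import Cfsg.Agent.H12.Transfer

set_option autoImplicit false
set_option linter.unusedSectionVars false

/-! Local-to-global control of transfer by a conjugacy functor together with a central functor. -/

namespace Cfsg.Agent.H12

open Cfsg
open scoped commutatorElement

variable {G : Type*} [Group G] [Finite G] {p : ℕ} [Fact p.Prime]

/-- the target subgroup at `T` inside `H` -/
def wvFoc (W V : Subgroup G → Subgroup G) (H T : Subgroup G) : Subgroup G :=
  (T ⊓ ⁅H ⊓ Subgroup.normalizer ((W T : Subgroup G) : Set G), H ⊓ Subgroup.normalizer ((W T : Subgroup G) : Set G)⁆) ⊔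
  (T ⊓ ⁅H ⊓ Subgroup.centralizer ((V T : Subgroup G) : Set G), H ⊓ Subgroup.centralizer ((V T : Subgroup G) : Set G)⁆)

lemma cj_sup'' (A B : Subgroup G) (g : G) : cj (A ⊔ B) g = cj A g ⊔ cj B g := by
  unfold cj; exact Subgroup.map_sup _ _ _

lemma cj_wvFoc {W V : Subgroup G → Subgroup G} (hW : IsConjugacyFunctor p W) (hV : IsConjugacyFunctor p V)
    {H T : Subgroup G} (hT : IsPGroup p T) {v : G} (hv : v ∈ H) : cj (wvFoc W V H T) v = wvFoc W V H (cj T v) := by
  unfold wvFoc
  rw [cj_sup'', cj_inf, cj_inf, cj_commutator, cj_commutator, cj_inf, cj_inf, cj_self_of_mem hv,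
    functor_cj hW hT, functor_cj hV hT, normalizer_cj, centralizer_cj]

theorem wv_transfer_global (hdiv : p ∣ Nat.card G) (S : Sylow p G) (W V : Subgroup G → Subgroup G)
    (hW : IsConjugacyFunctor p W) (hV : IsConjugacyFunctor p V)
    (hWZ : ∀ H : Subgroup G, IsPGroup p ↥H → H ⊓ Subgroup.centralizer ((H : Subgroup G) : Set G) ≤ W H)
    (hVmono : ∀ H K : Subgroup G, IsPGroup p ↥H → IsPGroup p ↥K → H ≠ ⊥ → K ≠ ⊥ →
      H ⊓ Subgroup.centralizer ((H : Subgroup G) : Set G) ≤ K ⊓ Subgroup.centralizer ((K : Subgroup G) : Set G) →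
      V H ≤ V K)
    (hloc : ∀ H : Subgroup G, (S : Subgroup G) ⊓ Subgroup.centralizer ((S : Subgroup G) : Set G) ≤ H →
      H ≤ (S : Subgroup G) → ∃ Q : Subgroup G, Q ≤ Subgroup.normalizer (H : Set G) ∧ IsPGroup p ↥Q ∧
        ¬ p ∣ Q.relIndex (Subgroup.normalizer (H : Set G)) ∧
        Q ⊓ ⁅Subgroup.normalizer (H : Set G), Subgroup.normalizer (H : Set G)⁆ ≤
          wvFoc W V (Subgroup.normalizer (H : Set G)) Q) :
    (S : Subgroup G) ⊓ ⁅(⊤ : Subgroup G), ⊤⁆ ≤ wvFoc W V ⊤ S := by
  have hSne : (S : Subgroup G) ≠ ⊥ := by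
    intro hb
    have h1 := S.not_dvd_index
    rw [hb, Subgroup.index_bot] at h1
    exact h1 hdiv
  set F : Subgroup G := wvFoc W V ⊤ S with hF
  have hC := fusionClosed_comm (S : Subgroup G) F
  have claim : ∀ (n : ℕ) (U : Subgroup G), U ≤ S → FullyNormalized p S U →
      (S : Subgroup G) ⊓ Subgroup.centralizer ((S : Subgroup G) : Set G) ≤ U →
      FCen p ((S : Subgroup G) ⊓ Subgroup.normalizer (U : Set G)) →
      Nat.card (S : Subgroup G) - Nat.card ((S : Subgroup G) ⊓ Subgroup.normalizer (U : Set G) : Subgroup G) = n →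
      (∀ R : Subgroup G, R ≤ S → Nat.card ((S : Subgroup G) ⊓ Subgroup.normalizer (U : Set G) : Subgroup G) < Nat.card R →
        ∀ g, cj R g ≤ S → ∀ a ∈ R, a⁻¹ * (g⁻¹ * a * g) ∈ F) →
      (S : Subgroup G) ⊓ ⁅Subgroup.normalizer (U : Set G), Subgroup.normalizer (U : Set G)⁆ ≤ F := by
    intro n
    induction n using Nat.strong_induction_on with
    | _ n ih =>
      intro U hUS hfn hZU hcen hn IH
      set S₁ := (S : Subgroup G) ⊓ Subgroup.normalizer (U : Set G) with hS₁
      have hS₁p : IsPGroup p S₁ := S.2.to_le inf_le_left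
      have h1 : (S : Subgroup G) ⊓ ⁅Subgroup.normalizer (U : Set G), Subgroup.normalizer (U : Set G)⁆ ≤
          S₁ ⊓ ⁅Subgroup.normalizer (U : Set G), Subgroup.normalizer (U : Set G)⁆ := by
        refine le_inf (le_inf inf_le_left (inf_le_right.trans ?_)) inf_le_right
        exact Subgroup.commutator_le_self _
      refine h1.trans ?_
      -- the local hypothesis at `S₁`
      have hlocS₁ : S₁ ⊓ ⁅Subgroup.normalizer (U : Set G), Subgroup.normalizer (U : Set G)⁆ ≤
          wvFoc W V (Subgroup.normalizer (U : Set G)) S₁ := by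
        obtain ⟨Q, hQN, hQp, hQidx, hQ⟩ := hloc U hZU hUS
        obtain ⟨v, hv, hvQ⟩ := exists_cj_eq_of_sylow_rel (T := S₁) inf_le_right hS₁p hfn hQN hQp hQidx
        have h2 := cj_mono hQ v⁻¹
        rw [cj_wvFoc hW hV hQp (inv_mem hv), cj_inf, cj_commutator, cj_self_of_mem (inv_mem hv), ← hvQ,
          cj_cj_inv] at h2
        exact h2
      refine hlocS₁.trans (sup_le ?_ ?_)
      · by_cases hS₁S : S₁ = S
        · rw [hS₁S]
          refine le_trans ?_ le_sup_left
          exact inf_le_inf_left _ (Subgroup.commutator_mono (inf_le_inf_right _ le_top) (inf_le_inf_right _ le_top))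
        · have hW₁ : W S₁ ≤ S := (functor_le hW hS₁p).trans inf_le_left
          obtain ⟨k, hk0, hkfn, hk2⟩ := exists_fully_normalized_extremal S (W S₁) hW₁
          set S₂ := (S : Subgroup G) ⊓ Subgroup.normalizer ((W S₁ : Subgroup G) : Set G) with hS₂
          have hlt : S₁ < S₂ := by
            refine lt_of_lt_of_le (lt_inf_normalizer S.2 (lt_of_le_of_ne inf_le_left hS₁S)) ?_
            exact inf_le_inf_left _ (normalizer_le_normalizer_functor hW hS₁p)
          have hk3 : cj S₂ k ≤ (S : Subgroup G) ⊓ Subgroup.normalizer ((cj (W S₁) k : Subgroup G) : Set G) := by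
            refine le_inf hk2 ?_
            rw [normalizer_cj]; exact cj_mono inf_le_right k
          have hS₁k : cj S₁ k ≤ S := (cj_mono hlt.le k).trans hk2
          have hcen1 : FCen p (cj S₁ k) := hcen.conj k
          have hcen2 : FCen p ((S : Subgroup G) ⊓ Subgroup.normalizer ((cj (W S₁) k : Subgroup G) : Set G)) :=
            hcen1.mono ((cj_mono hlt.le k).trans hk3)
          have hZ2 : (S : Subgroup G) ⊓ Subgroup.centralizer ((S : Subgroup G) : Set G) ≤ cj (W S₁) k := by
            rw [← functor_cj hW hS₁p]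
            exact (hcen1.center_le S.2 hS₁k).trans (hWZ _ (isPGroup_cj hS₁p k))
          have hc12 := card_lt_of_lt hlt
          have hc2 : Nat.card S₂ ≤ Nat.card ((S : Subgroup G) ⊓ Subgroup.normalizer
              ((cj (W S₁) k : Subgroup G) : Set G) : Subgroup G) := by
            have := Subgroup.card_le_of_le hk3
            rwa [card_cj] at this
          have hc3 : Nat.card ((S : Subgroup G) ⊓ Subgroup.normalizer
              ((cj (W S₁) k : Subgroup G) : Set G) : Subgroup G) ≤ Nat.card (S : Subgroup G) :=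
            Subgroup.card_le_of_le inf_le_left
          intro z hz
          have hzS₂ : z ∈ S₂ := hlt.le hz.1
          have hzc : z ∈ ⁅Subgroup.normalizer ((W S₁ : Subgroup G) : Set G),
              Subgroup.normalizer ((W S₁ : Subgroup G) : Set G)⁆ :=
            Subgroup.commutator_mono inf_le_right inf_le_right hz.2
          have hw : k⁻¹ * z * k ∈ F := by
            refine ih _ (by omega) (cj (W S₁) k) hk0 hkfn hZ2 hcen2 rfl ?_ ⟨(hk3 (conj_mem_cj hzS₂)).1, ?_⟩
            · intro R hR hlt' g hg
              exact IH R hR (by omega) g hg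
            · rw [normalizer_cj, ← cj_commutator]; exact conj_mem_cj hzc
          have hzw := IH S₂ inf_le_left hc12 k (hk3.trans inf_le_left) z hzS₂
          have e : z = (k⁻¹ * z * k) * (z⁻¹ * (k⁻¹ * z * k))⁻¹ := by group
          rw [e]
          exact mul_mem hw (inv_mem hzw)
      · have hS₁ne : S₁ ≠ ⊥ := by
          intro hb
          have hU : U = ⊥ := by
            rw [eq_bot_iff, ← hb]
            exact le_inf hUS Subgroup.le_normalizer
          apply hSne
          rw [eq_bot_iff, ← hb, hS₁, hU]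
          refine le_inf le_rfl ?_
          intro x _
          rw [← cj_eq_self_iff]
          exact cj_eq_of_le (by rw [cj_le_iff]; exact bot_le)
        have hVle : V S ≤ V S₁ := by
          refine hVmono S S₁ S.2 hS₁p hSne hS₁ne ?_
          refine le_inf ((hZU.trans (le_inf hUS Subgroup.le_normalizer))) ?_
          exact inf_le_right.trans (Subgroup.centralizer_le inf_le_left)
        refine le_trans ?_ le_sup_right
        refine inf_le_inf inf_le_left (Subgroup.commutator_mono ?_ ?_) <;>
          exact le_inf le_top (inf_le_right.trans (Subgroup.centralizer_le hVle))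
  have hcomm : ∀ {N : Subgroup G} {a g : G}, a ∈ N → g ∈ N → a⁻¹ * (g⁻¹ * a * g) ∈ ⁅N, N⁆ := by
    intro N a g ha hg
    have := Subgroup.commutator_mem_commutator (inv_mem ha) (inv_mem hg)
    have e : ⁅a⁻¹, g⁻¹⁆ = a⁻¹ * (g⁻¹ * a * g) := by rw [commutatorElement_def]; group
    rwa [e] at this
  have main : ∀ T : Subgroup G, T ≤ S → ∀ g, cj T g ≤ S → ∀ a ∈ T, a⁻¹ * (g⁻¹ * a * g) ∈ F := by
    refine alperin_abstract S _ hC ?_ ?_
    · intro g hg a ha
      rw [hF]
      unfold wvFoc
      refine Subgroup.mem_sup_left (Subgroup.mem_inf.mpr ⟨?_, ?_⟩)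
      · refine (S : Subgroup G).mul_mem ((S : Subgroup G).inv_mem ha) ?_
        have := conj_mem_cj (g := g) ha
        rwa [cj_eq_self hg] at this
      · have hN := normalizer_le_normalizer_functor hW S.2
        exact hcomm ⟨Subgroup.mem_top _, hN (Subgroup.le_normalizer ha)⟩ ⟨Subgroup.mem_top _, hN hg⟩
    · intro T hT hne
      obtain ⟨h, hUS, hfn⟩ := exists_fully_normalized S T (S.2.to_le hT)
      refine ⟨h, hUS, hfn, ?_⟩
      intro IH m hm
      have hcard : Nat.card (cj T h) = Nat.card T := card_cj T h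
      generalize cj T h = U at *
      have hUN : U ≤ (S : Subgroup G) ⊓ Subgroup.normalizer (U : Set G) := le_inf hUS Subgroup.le_normalizer
      by_cases hc : (S : Subgroup G) ⊓ Subgroup.centralizer (U : Set G) ≤ U
      · have hcenU : FCen p U := FCen.of_fullyNormalized S hfn hc
        intro a ha
        refine claim _ U hUS hfn ((hcenU.center_le S.2 hUS).trans inf_le_left) (hcenU.mono hUN) rfl ?_
          ⟨?_, hcomm (Subgroup.le_normalizer ha) hm⟩
        · intro R hR hlt g hg
          have := Subgroup.card_le_of_le hUN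
          exact IH R hR (by omega) g hg
        · refine (S : Subgroup G).mul_mem ((S : Subgroup G).inv_mem (hUS ha)) (hUS ?_)
          have := conj_mem_cj (g := m) ha
          rwa [cj_eq_self hm] at this
      · set C := Subgroup.centralizer (U : Set G) with hCdef
        set D := (S : Subgroup G) ⊓ C with hD
        have hCN : C ≤ Subgroup.normalizer (U : Set G) := Subgroup.centralizer_le_normalizer _
        have hCn : ∀ x ∈ Subgroup.normalizer (U : Set G), cj C x = C := by
          intro x hx
          rw [hCdef, ← centralizer_cj, cj_eq_self hx]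
        have hidx : ¬ p ∣ (((S : Subgroup G) ⊓ Subgroup.normalizer (U : Set G)) ⊓ C).relIndex C :=
          sylow_rel_inf_normal inf_le_right (S.2.to_le inf_le_left) hfn hCN hCn
        have e0 : ((S : Subgroup G) ⊓ Subgroup.normalizer (U : Set G)) ⊓ C = D := by
          rw [inf_assoc, inf_eq_right.mpr hCN]
        rw [e0] at hidx
        have hDp : IsPGroup p D := S.2.to_le inf_le_left
        have hDm : cj D m ≤ C := by
          rw [← hCn m hm]; exact cj_mono inf_le_right m
        obtain ⟨c, hcC, hle⟩ := exists_conj_le_of_relIndex (H := C) (T := D) inf_le_right hDp hidx hDm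
          (isPGroup_cj hDp m)
        have hle' : cj D (m * c⁻¹) ≤ D := by
          rw [← cj_mul]; unfold cj at hle ⊢; simpa using hle
        have hDeq : cj D (m * c⁻¹) = D := cj_eq_of_le hle'
        have hnU : m * c⁻¹ ∈ Subgroup.normalizer (U : Set G) := mul_mem hm (inv_mem (hCN hcC))
        have hR : cj (U ⊔ D) (m * c⁻¹) = U ⊔ D := by
          rw [cj_sup'', cj_eq_self hnU, hDeq]
        have hRS : U ⊔ D ≤ S := sup_le hUS inf_le_left
        have hlt : U < U ⊔ D := by
          refine lt_of_le_of_ne le_sup_left ?_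
          intro h
          apply hc
          rw [h]; exact le_sup_right
        have h1 := IH _ hRS (by have := card_lt_of_lt hlt; omega) (m * c⁻¹) (by rw [hR]; exact hRS)
        intro a ha
        have h2 := h1 a (le_sup_left (a := U) ha)
        have ha' : m⁻¹ * a * m ∈ U := by
          have := conj_mem_cj (g := m) ha
          rwa [cj_eq_self hm] at this
        have h3 := (Subgroup.mem_centralizer_iff.mp hcC) _ ha'
        have e : (m * c⁻¹)⁻¹ * a * (m * c⁻¹) = m⁻¹ * a * m := by
          calc (m * c⁻¹)⁻¹ * a * (m * c⁻¹) = c * (m⁻¹ * a * m) * c⁻¹ := by group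
            _ = (m⁻¹ * a * m) * c * c⁻¹ := by rw [h3]
            _ = m⁻¹ * a * m := by group
        rwa [e] at h2
  have hfoc := Subgroup.commutator_inf_eq_focalSubgroup S
  rw [commutator_def] at hfoc
  rw [inf_comm, hfoc, Subgroup.focalSubgroup_def, Subgroup.closure_le]
  rintro g ⟨hgS, x, hx, u, rfl⟩
  have h1 : u * x⁻¹ * u⁻¹ ∈ (S : Subgroup G) := by
    have := mul_mem (inv_mem hx) hgS
    have e : x⁻¹ * ⁅x, u⁆ = u * x⁻¹ * u⁻¹ := by rw [commutatorElement_def]; group
    rwa [e] at this
  have h2 := main (Subgroup.zpowers x⁻¹) (by simpa using hx) u⁻¹ (by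
    rw [cj_le_iff, Subgroup.zpowers_le, mem_cj]
    simpa using h1) x⁻¹ (Subgroup.mem_zpowers _)
  have e : ⁅x, u⁆ = x⁻¹⁻¹ * (u⁻¹⁻¹ * x⁻¹ * u⁻¹) := by rw [commutatorElement_def]; group
  rw [SetLike.mem_coe, e]
  exact h2

end Cfsg.Agent.H12
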