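import Mathlib
import Cfsg.Agent.H12.Zj5
import Cfsg.Agent.H12.Dk16
import Cfsg.Agent.Lib.Helper13.S4Sec

set_option autoImplicit false
set_option linter.unusedSimpArgs false
set_option linter.unusedSectionVars false
set_option linter.unnecessarySeqFocus false

/-! `Qd(p)` and the alternating groups. -/

namespace Cfsg.Agent.H12.Zj

open Subgroup Matrix Cfsg.Agent.H12.Dk Cfsg.Agent.Lib.Helper13
open scoped commutatorElement

universe u

variable {p : ℕ} [hpf : Fact p.Prime]

lemma isCoatom_of_index_prime {G : Type*} [Group G] {H : Subgroup G} (h : H.index = p) : IsCoatom H := by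
  constructor
  · intro htop
    rw [htop, index_top] at h
    exact hpf.out.one_lt.ne h
  · intro K hK
    have h1 := relIndex_mul_index hK.le
    rw [h] at h1
    have h2 : K.index ∣ p := ⟨_, by rw [← h1, mul_comm]⟩
    rcases (Nat.dvd_prime hpf.out).mp h2 with h3 | h3
    · exact index_eq_one.mp h3
    · exfalso
      rw [h3] at h1
      have h4 : H.relIndex K = 1 := by
        have := hpf.out.pos
        exact Nat.eq_of_mul_eq_mul_right this (by rw [h1, one_mul])
      exact hK.not_ge (relIndex_eq_one.mp h4)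

lemma comm_of_pgroup_perm {n : ℕ} (hn : n < p ^ 2) (T : Subgroup (Equiv.Perm (Fin n))) (hT : IsPGroup p T) :
    ∀ a ∈ T, ∀ b ∈ T, a * b = b * a := by
  intro a ha b hb
  have key : ∀ x : Fin n, commutator T ≤ MulAction.stabilizer T x := by
    intro x
    obtain ⟨k, hk⟩ := hT.card_orbit x
    have hidx : (MulAction.stabilizer T x).index = p ^ k := by
      rw [MulAction.index_stabilizer, ← hk]; rfl
    have hle : p ^ k ≤ n := by
      rw [← hk]
      calc Nat.card (MulAction.orbit T x) ≤ Nat.card (Fin n) := Nat.card_le_card_of_injective _ Subtype.val_injective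
        _ = n := Nat.card_fin n
    have hk1 : k < 2 := by
      by_contra hcon
      have : p ^ 2 ≤ p ^ k := Nat.pow_le_pow_right hpf.out.pos (by omega)
      omega
    have hk01 : k = 0 ∨ k = 1 := by omega
    rcases hk01 with rfl | rfl
    · rw [pow_zero] at hidx
      rw [index_eq_one.mp hidx]
      exact le_top
    · rw [pow_one] at hidx
      exact (Cfsg.Agent.S0012.result p hT).1.trans (frattini_le_coatom (isCoatom_of_index_prime hidx))
  have h1 : ⁅a, b⁆ = 1 := by
    ext x
    have h2 : ⁅(⟨a, ha⟩ : T), ⟨b, hb⟩⁆ ∈ MulAction.stabilizer T x :=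
      key x (commutator_mem_commutator (mem_top _) (mem_top _))
    have h3 : (⁅(⟨a, ha⟩ : T), ⟨b, hb⟩⁆ : T) • x = x := h2
    have h4 : ⁅a, b⁆ x = x := h3
    rw [h4]; rfl
  rw [commutatorElement_def] at h1
  have := congrArg (fun z => z * b * a) h1
  simpa [mul_assoc] using this

theorem not_involves_alternating {n : ℕ} (hn : n < p ^ 2) :
    ¬ Cfsg.Involves ↥(Cfsg.qd p) ↥(alternatingGroup (Fin n)) := by
  intro h
  obtain ⟨K, f, hf⟩ := involves_iff.mp h
  obtain ⟨T⟩ : Nonempty (Sylow p K) := inferInstance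
  have hfin : Finite ↥(Cfsg.qd p) := inferInstance
  obtain ⟨D, hD⟩ := QdPar.exists_par_of_sylow (QdPar.ofEquiv (MulEquiv.refl ↥(Cfsg.qd p))) (T.mapSurjective hf)
  rw [Sylow.coe_mapSurjective] at hD
  let ι : K →* Equiv.Perm (Fin n) := (alternatingGroup (Fin n)).subtype.comp K.subtype
  have hι : Function.Injective ι := Subtype.val_injective.comp Subtype.val_injective
  have hc := comm_of_pgroup_perm hn ((T : Subgroup K).map ι) (T.2.map ι)
  have hc' : ∀ a ∈ (T : Subgroup K), ∀ b ∈ (T : Subgroup K), a * b = b * a := by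
    intro a ha b hb
    apply hι
    rw [map_mul, map_mul]
    exact hc _ ⟨a, ha, rfl⟩ _ ⟨b, hb, rfl⟩
  have h1 := D.card_le_of_abelian (B := D.T0) le_rfl (by
    rw [← hD]
    rintro _ ⟨a, ha, rfl⟩ _ ⟨b, hb, rfl⟩
    rw [← map_mul, ← map_mul, hc' a ha b hb])
  rw [D.card_T0] at h1
  have := Nat.pow_lt_pow_right hpf.out.one_lt (show 2 < 3 by norm_num)
  omega

end Cfsg.Agent.H12.Zj
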