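import Mathlib
import Cfsg.Agent.H12.Zj6

set_option autoImplicit false
set_option linter.unusedSimpArgs false
set_option linter.unusedSectionVars false
set_option linter.unnecessarySeqFocus false

/-! `Qd(p)` embeds in the alternating group of degree `n ≥ p²`. -/

namespace Cfsg.Agent.H12.Zj

open Subgroup Matrix Cfsg.Agent.H12.Dk Cfsg.Agent.Lib.Helper13

universe u

variable {p : ℕ} [hpf : Fact p.Prime]

namespace QdPar

variable {Y : Type u} [Group Y] (D : QdPar p Y)

noncomputable def lin (y : Y) : SpecialLinearGroup (Fin 2) (ZMod p) := (D.surj y).choose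
noncomputable def tr (y : Y) : ZMod p × ZMod p := (D.surj y).choose_spec.choose

lemma spec (y : Y) : y = D.A (D.lin y) (D.tr y) := (D.surj y).choose_spec.choose_spec

lemma lin_A (m : SpecialLinearGroup (Fin 2) (ZMod p)) (v : ZMod p × ZMod p) : D.lin (D.A m v) = m :=
  (D.inj _ _ _ _ (D.spec (D.A m v))).1.symm

lemma tr_A (m : SpecialLinearGroup (Fin 2) (ZMod p)) (v : ZMod p × ZMod p) : D.tr (D.A m v) = v :=
  (D.inj _ _ _ _ (D.spec (D.A m v))).2.symm

lemma act_add' (m : SpecialLinearGroup (Fin 2) (ZMod p)) (v w : ZMod p × ZMod p) :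
    act m (v + w) = act m v + act m w := by
  unfold act
  ext <;> simp <;> ring

lemma act_zero' (m : SpecialLinearGroup (Fin 2) (ZMod p)) : act m (0 : ZMod p × ZMod p) = 0 := by
  unfold act
  ext <;> simp

/-- the affine action -/
@[reducible] noncomputable def affAction : MulAction Y (ZMod p × ZMod p) where
  smul y w := act (D.lin y) w + D.tr y
  one_smul w := by
    change act (D.lin 1) w + D.tr 1 = w
    rw [← D.one, D.lin_A, D.tr_A, act_one, add_zero]
  mul_smul y y' w := by
    change act (D.lin (y * y')) w + D.tr (y * y') = act (D.lin y) (act (D.lin y') w + D.tr y') + D.tr y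
    conv_lhs => rw [D.spec y, D.spec y', D.mul, D.lin_A, D.tr_A]
    rw [act_mul, act_add']
    abel

noncomputable def affHom : Y →* Equiv.Perm (ZMod p × ZMod p) := @MulAction.toPermHom Y _ _ D.affAction

lemma affHom_apply (m : SpecialLinearGroup (Fin 2) (ZMod p)) (v w : ZMod p × ZMod p) :
    D.affHom (D.A m v) w = act m w + v := by
  change act (D.lin (D.A m v)) w + D.tr (D.A m v) = _
  rw [D.lin_A, D.tr_A]

lemma affHom_injective : Function.Injective D.affHom := by
  rw [injective_iff_map_eq_one]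
  intro y hy
  obtain ⟨m, v, rfl⟩ := D.surj y
  have h0 := D.affHom_apply m v 0
  rw [hy, act_zero', zero_add] at h0
  have hv : v = 0 := h0.symm
  subst hv
  have h1 := D.affHom_apply m 0 (1, 0)
  have h2 := D.affHom_apply m 0 (0, 1)
  rw [hy, add_zero] at h1 h2
  unfold act at h1 h2
  simp only [Equiv.Perm.coe_one, id_eq, mul_one, mul_zero, add_zero, zero_add, Prod.mk.injEq] at h1 h2
  have hm : m = 1 := by
    apply sl_ext
    · rw [← h1.1]; simp
    · rw [← h2.1]; simp
    · rw [← h1.2]; simp
    · rw [← h2.2]; simp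
  rw [hm, D.one]

/-- the complement -/
noncomputable def linHom : SpecialLinearGroup (Fin 2) (ZMod p) →* Y := MonoidHom.mk' (fun m => D.A m 0) (by
  intro m m'
  rw [D.mul, act_zero', add_zero])

lemma hom_units_trivial (D : QdPar p Y) (hp : p ≠ 2) (s : Y →* ℤˣ) : s = 1 := by
  have hodd : Odd p := hpf.out.odd_of_ne_two hp
  have key : ∀ y : Y, y ^ p = 1 → s y = 1 := by
    intro y hy
    have h1 : s y ^ p = 1 := by rw [← map_pow, hy, map_one]
    rcases Int.units_eq_one_or (s y) with h | h
    · exact h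
    · rw [h, hodd.neg_one_pow] at h1
      exact absurd h1 (by decide)
  have hT0 : ∀ y ∈ D.T0, s y = 1 := by
    intro y hy
    exact key y (congrArg Subtype.val (D.pow_p_T0 hp ⟨y, hy⟩))
  have hlin : s.comp D.linHom = 1 := by
    have hle : (⊤ : Subgroup (SpecialLinearGroup (Fin 2) (ZMod p))) ≤ (s.comp D.linHom).ker := by
      rw [← closure_xx_yy p (one_ne_zero : (1 : ZMod p) ≠ 0), closure_le]
      rintro m (rfl | rfl)
      · exact hT0 _ ⟨1, 0, rfl⟩
      · apply key
        change (D.linHom (yy 1)) ^ p = 1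
        rw [← map_pow, yy_pow]
        have : yy (((p : ℕ) : ZMod p) * 1) = 1 := by
          rw [ZMod.natCast_self]
          apply sl_ext <;> simp
        rw [this, map_one]
    ext1 m
    exact hle (mem_top m)
  ext1 y
  obtain ⟨m, v, rfl⟩ := D.surj y
  have e : D.A m v = D.A 1 v * D.A m 0 := by
    rw [D.mul, one_mul, act_one, add_zero]
  rw [e, map_mul, hT0 _ (D.W0_le ⟨v, rfl⟩)]
  have h5 : s (D.A m 0) = 1 := congrArg (fun f => f m) hlin
  rw [h5]; rfl

theorem exists_alternating (D : QdPar p Y) (hp : p ≠ 2) {n : ℕ} (hn : p ^ 2 ≤ n) :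
    ∃ H : Subgroup (alternatingGroup (Fin n)), Nonempty (↥H ≃* Y) := by
  obtain ⟨ι⟩ : Nonempty ((ZMod p × ZMod p) ↪ Fin n) := Function.Embedding.nonempty_of_card_le (by
    rw [Fintype.card_prod, ZMod.card, Fintype.card_fin, ← sq]; exact hn)
  let ψ : Y →* Equiv.Perm (Fin n) := (Equiv.Perm.viaEmbeddingHom ι).comp D.affHom
  have hψ : Function.Injective ψ := (Equiv.Perm.viaEmbeddingHom_injective ι).comp D.affHom_injective
  have hs : ∀ y, ψ y ∈ alternatingGroup (Fin n) := by
    intro y
    rw [Equiv.Perm.mem_alternatingGroup]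
    have := D.hom_units_trivial hp (Equiv.Perm.sign.comp ψ)
    exact congrArg (fun f => f y) this
  let ψ' : Y →* alternatingGroup (Fin n) := ψ.codRestrict _ hs
  have hψ' : Function.Injective ψ' := by
    intro a b hab
    exact hψ (congrArg Subtype.val hab)
  exact ⟨ψ'.range, ⟨(MonoidHom.ofInjective hψ').symm⟩⟩

end QdPar

end Cfsg.Agent.H12.Zj
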